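import Mathlib

/-!
Table-driven calculus for Steinberg type relations.
-/

set_option autoImplicit false

namespace Cfsg.Agent.H2.CT

/-- Tables describing a root system with structure constants and auxiliary certificates. -/
structure Dat where
  n : ℕ
  l : ℕ
  ng : ℕ → ℕ
  sp : ℕ → ℕ
  ct : ℕ → ℕ → List (ℕ × ℤ × ℕ × ℕ)
  w : ℕ → ℕ → ℕ
  sg : ℕ → ℕ → Bool
  mu : ℕ → ℕ
  jd : ℕ → ℕ
  in2 : ℕ → ℕ → ℕ → Bool

/-- A sign as an integer. -/
def sI (b : Bool) : ℤ := cond b (-1) 1

theorem sI_mul_self (b : Bool) : sI b * sI b = 1 := by cases b <;> rfl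

theorem sI_xor (a b : Bool) : sI (xor a b) = sI a * sI b := by cases a <;> cases b <;> rfl

/-- Letters: root, coefficient, exponent. -/
abbrev Letter := ℕ × ℤ × ℕ

variable {K : Type*} [Field K] {G : Type*} [Group G]

theorem sK_mul_self (b : Bool) : ((sI b : ℤ) : K) * (sI b : ℤ) = 1 := by
  rw [← Int.cast_mul, sI_mul_self, Int.cast_one]

/-- Additivity. -/
def AddR (X : ℕ → K → G) (r : ℕ) : Prop := ∀ t u, X r t * X r u = X r (t + u)

theorem AddR.zero {X : ℕ → K → G} {r : ℕ} (h : AddR X r) : X r 0 = 1 := by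
  have := h 0 0
  rw [add_zero] at this
  exact mul_eq_left.mp this

theorem AddR.inv {X : ℕ → K → G} {r : ℕ} (h : AddR X r) (t : K) : (X r t)⁻¹ = X r (-t) := by
  rw [inv_eq_iff_mul_eq_one, h, add_neg_cancel, h.zero]

/-- Conjugation maps a root subgroup to another. -/
def Cj (X : ℕ → K → G) (g : G) (r r' : ℕ) (b : Bool) : Prop :=
  ∀ t, g * X r t * g⁻¹ = X r' ((sI b : ℤ) * t)

theorem Cj.mul {X : ℕ → K → G} {g h : G} {r s u : ℕ} {b c : Bool} (h1 : Cj X h r s b)
    (h2 : Cj X g s u c) : Cj X (g * h) r u (xor c b) := by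
  intro t
  calc g * h * X r t * (g * h)⁻¹ = g * (h * X r t * h⁻¹) * g⁻¹ := by group
    _ = _ := by rw [h1, h2, sI_xor, Int.cast_mul, mul_assoc]

theorem Cj.inv {X : ℕ → K → G} {g : G} {r s : ℕ} {b : Bool} (h : Cj X g r s b) :
    Cj X g⁻¹ s r b := by
  intro t
  have := h ((sI b : ℤ) * t)
  rw [← mul_assoc ((sI b : ℤ) : K), sK_mul_self, one_mul] at this
  rw [← this]; group

theorem Cj.one (X : ℕ → K → G) (r : ℕ) : Cj X 1 r r false := by
  intro t; simp [sI]

namespace Dat

variable (D : Dat) (X : ℕ → K → G)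

/-- The right-hand side of the commutator formula. -/
def cw (r s : ℕ) (t u : K) : G :=
  ((D.ct r s).map fun c => X c.1 ((c.2.1 : K) * (-t) ^ c.2.2.1 * u ^ c.2.2.2)).prod

/-- The commutator relation. -/
def Comm (r s : ℕ) : Prop := ∀ t u, (X s u)⁻¹ * (X r t)⁻¹ * X s u * X r t = D.cw X r s t u

/-- The elements `n_r(t)`. -/
def nn (r : ℕ) (t : K) : G := X r t * X (D.ng r) (-t⁻¹) * X r t

/-- The torus relation. -/
def Hm (r : ℕ) : Prop := ∀ t₁ t₂ : K, t₁ ≠ 0 → t₂ ≠ 0 →
  (D.nn X r t₁ * D.nn X r (-1)) * (D.nn X r t₂ * D.nn X r (-1)) = D.nn X r (t₁ * t₂) * D.nn X r (-1)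

/-- The fundamental reflections. -/
def N (i : ℕ) : G := D.nn X (D.sp i) 1

/-- The action of a fundamental reflection on a root subgroup. -/
def F (i r : ℕ) : Prop := Cj X (D.N X i) r (D.w i r) (D.sg i r)

/-- Evaluation of a letter. -/
def ev (u : K) (L : Letter) : G := X L.1 ((L.2.1 : K) * u ^ L.2.2)

/-- Evaluation of a word. -/
def evW (u : K) (w : List Letter) : G := (w.map (ev X u)).prod

/-- Commutator terms of two letters. -/
def terms (r : ℕ) (c : ℤ) (j : ℕ) (L : Letter) : List Letter :=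
  (D.ct r L.1).map fun t => (t.1, t.2.1 * (-c) ^ t.2.2.1 * L.2.1 ^ t.2.2.2,
    j * t.2.2.1 + L.2.2 * t.2.2.2)

/-- Conjugation of a word by a root element. -/
def conjW (r : ℕ) (e : ℤ) (w : List Letter) : List Letter :=
  w.flatMap fun L => L :: D.terms r (-e) 0 L

/-- One collection step. -/
def step (ok : ℕ → ℕ → Bool) : List Letter → Option (List Letter)
  | [] => none
  | [L] => if L.2.1 = 0 then some [] else none
  | L1 :: L2 :: w =>
    if L1.2.1 = 0 then some (L2 :: w)
    else if L1.1 = L2.1 ∧ L1.2.2 = L2.2.2 then some ((L1.1, L1.2.1 + L2.2.1, L1.2.2) :: w)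
    else if L1.1 = L2.1 ∧ L2.2.2 < L1.2.2 then some (L2 :: L1 :: w)
    else if L2.1 < L1.1 ∧ ok L2.1 L1.1 = true then
      some (L2 :: L1 :: (D.terms L2.1 L2.2.1 L2.2.2 L1 ++ w))
    else (step ok (L2 :: w)).map (L1 :: ·)

/-- Collection. -/
def norm (ok : ℕ → ℕ → Bool) : ℕ → List Letter → List Letter
  | 0, w => w
  | f + 1, w => match D.step ok w with
    | none => w
    | some w' => norm ok f w'

/-- Symbolic verification of the action of a fundamental reflection. -/
def symA (ok : ℕ → ℕ → Bool) (i s : ℕ) : Bool :=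
  ok (D.sp i) s &&
  (D.conjW (D.sp i) 1 [(s, 1, 1)]).all (fun L => ok (D.ng (D.sp i)) L.1) &&
  (D.conjW (D.ng (D.sp i)) (-1) (D.conjW (D.sp i) 1 [(s, 1, 1)])).all (fun L => ok (D.sp i) L.1) &&
  decide (D.norm ok 30 (D.conjW (D.sp i) 1 (D.conjW (D.ng (D.sp i)) (-1)
    (D.conjW (D.sp i) 1 [(s, 1, 1)]))) = [(D.w i s, sI (D.sg i s), 1)])

variable {D X}

theorem evW_cons (u : K) (L : Letter) (w : List Letter) :
    evW X u (L :: w) = ev X u L * evW X u w := by simp [evW]

theorem evW_append (u : K) (v w : List Letter) :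
    evW X u (v ++ w) = evW X u v * evW X u w := by simp [evW]

theorem evW_terms (u : K) (r : ℕ) (c : ℤ) (j : ℕ) (L : Letter) :
    evW X u (D.terms r c j L) = D.cw X r L.1 ((c : K) * u ^ j) ((L.2.1 : K) * u ^ L.2.2) := by
  simp only [evW, terms, cw, List.map_map]
  congr 1
  apply List.map_congr_left
  intro t _
  simp only [Function.comp, ev]
  congr 1
  push_cast
  rw [← neg_mul, mul_pow, mul_pow, ← pow_mul, ← pow_mul, pow_add]
  ring

theorem swap {r : ℕ} {L : Letter} (h : D.Comm X r L.1) (u : K) (c : ℤ) (j : ℕ) :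
    ev X u L * ev X u (r, c, j) = ev X u (r, c, j) * ev X u L * evW X u (D.terms r c j L) := by
  rw [evW_terms, ← h]
  simp only [ev]
  group

section engine

variable (hA : ∀ r, AddR X r) {ok : ℕ → ℕ → Bool} (hok : ∀ r s, ok r s = true → D.Comm X r s)
include hA hok

theorem conjW_spec (u : K) (r : ℕ) (e : ℤ) : ∀ w : List Letter, w.all (fun L => ok r L.1) = true →
    X r e * evW X u w * (X r e)⁻¹ = evW X u (D.conjW r e w) := by
  intro w
  induction w with
  | nil => intro _; simp [evW, conjW]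
  | cons L w ih =>
    intro h
    simp only [List.all_cons, Bool.and_eq_true] at h
    have h1 := swap (hok r L.1 h.1) u (-e) 0
    have h2 : ev X u (r, -e, 0) = (X r e)⁻¹ := by rw [(hA r).inv]; simp [ev]
    rw [h2] at h1
    have h3 : D.conjW r e (L :: w) = (L :: D.terms r (-e) 0 L) ++ D.conjW r e w := by
      simp [conjW]
    rw [h3, evW_append, ← ih h.2, evW_cons, evW_cons]
    calc _ = X r e * (ev X u L * (X r e)⁻¹) * (X r e * evW X u w * (X r e)⁻¹) := by group
      _ = _ := by rw [h1]; group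

theorem step_spec (u : K) : ∀ w w' : List Letter, D.step ok w = some w' → evW X u w = evW X u w'
  | [], _, h => by simp [step] at h
  | [L], w', h => by
    simp only [step] at h
    split_ifs at h with h1
    cases h
    simp [evW, ev, h1, (hA _).zero]
  | L1 :: L2 :: w, w', h => by
    simp only [step] at h
    split_ifs at h with h1 h2 h3 h4
    · cases h
      simp [evW_cons, ev, h1, (hA _).zero]
    · cases h
      simp only [evW_cons, ev, ← mul_assoc]
      rw [← h2.1, ← h2.2, hA]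
      push_cast
      rw [add_mul]
    · cases h
      simp only [evW_cons, ev, ← mul_assoc]
      rw [← h3.1, hA, hA, add_comm]
    · cases h
      simp only [evW_cons, evW_append, ← mul_assoc]
      rw [swap (hok _ _ h4.2)]
    · obtain ⟨v, hv, rfl⟩ := Option.map_eq_some_iff.mp h
      rw [evW_cons, evW_cons u L1 v, step_spec u _ _ hv]

theorem norm_spec (u : K) : ∀ (f : ℕ) (w : List Letter), evW X u w = evW X u (D.norm ok f w)
  | 0, _ => rfl
  | f + 1, w => by
    simp only [norm]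
    cases h : D.step ok w with
    | none => rfl
    | some w' => rw [step_spec hA hok u _ _ h]; exact norm_spec u f w'

theorem F_of_symA {i s : ℕ} (h : D.symA ok i s = true) : D.F X i s := by
  simp only [symA, Bool.and_eq_true, decide_eq_true_eq] at h
  obtain ⟨⟨⟨h1, h2⟩, h3⟩, h4⟩ := h
  intro u
  have e0 : X s u = evW X u [(s, 1, 1)] := by simp [evW, ev]
  have e1 := conjW_spec hA hok u (D.sp i) 1 [(s, 1, 1)] (by simpa using h1)
  have e2 := conjW_spec hA hok u _ (-1) _ h2
  have e3 := conjW_spec hA hok u _ 1 _ h3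
  rw [norm_spec hA hok u 30 (D.conjW (D.sp i) 1 (D.conjW _ _ _)), h4, ← e2, ← e1, ← e0] at e3
  have e4 : evW X u [(D.w i s, sI (D.sg i s), 1)] = X (D.w i s) ((sI (D.sg i s) : ℤ) * u) := by
    simp [evW, ev]
  rw [← e4, ← e3]
  simp only [N, nn]
  push_cast
  simp only [inv_one]
  group

end engine

theorem conj_nn {g : G} {r c : ℕ} {b : Bool} (h1 : Cj X g r c b)
    (h2 : Cj X g (D.ng r) (D.ng c) b) (t : K) :
    g * D.nn X r t * g⁻¹ = D.nn X c ((sI b : ℤ) * t) := by
  have : -(((sI b : ℤ) : K) * t)⁻¹ = (sI b : ℤ) * (-t⁻¹) := by cases b <;> simp [sI]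
  simp only [nn]
  rw [this, ← h1, ← h2]
  group

theorem nn_neg (hA : ∀ r, AddR X r) (r : ℕ) (t : K) : D.nn X r (-t) = (D.nn X r t)⁻¹ := by
  simp only [nn, mul_inv_rev, (hA _).inv, inv_neg, neg_neg, mul_assoc]

theorem AddR.of_cj {g : G} {r c : ℕ} {b : Bool} (h : Cj X g r c b) (hc : AddR X c) : AddR X r := by
  intro t u
  apply (MulAut.conj g).injective
  simp only [map_mul, MulAut.conj_apply]
  rw [h, h, h, hc, mul_add]

theorem Hm.of_cj (hA : ∀ r, AddR X r) {g : G} {r c : ℕ} {b : Bool} (h1 : Cj X g r c b)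
    (h2 : Cj X g (D.ng r) (D.ng c) b) (hr : D.Hm X r) : D.Hm X c := by
  have key : ∀ t : K, t ≠ 0 →
      D.nn X c t * D.nn X c (-1) = g * (D.nn X r t * D.nn X r (-1)) * g⁻¹ := by
    intro t ht
    cases b
    · have e1 := conj_nn h1 h2 t
      have e2 := conj_nn h1 h2 (-1)
      simp only [sI, cond_false, Int.cast_one, one_mul] at e1 e2
      rw [← e1, ← e2]; group
    · have e1 := conj_nn h1 h2 (-t)
      have e2 := conj_nn h1 h2 1
      simp only [sI, cond_true, Int.cast_neg, Int.cast_one, neg_mul, one_mul, neg_neg] at e1 e2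
      have e3 := hr t (-1) ht (by simp)
      rw [mul_neg_one, nn_neg hA r 1] at e3
      have e4 : D.nn X r (-t) = D.nn X r t * (D.nn X r 1)⁻¹ * (D.nn X r 1)⁻¹ := by
        apply mul_right_cancel (b := (D.nn X r 1)⁻¹)
        rw [← e3]; group
      rw [← e1, ← e2, nn_neg hA r 1, e4]
      group
  intro t₁ t₂ ht₁ ht₂
  rw [key _ ht₁, key _ ht₂, key _ (mul_ne_zero ht₁ ht₂), ← hr t₁ t₂ ht₁ ht₂]
  group

section checks

variable (D)

/-- Bounded universal quantifier. -/
def fa (n : ℕ) (p : ℕ → Bool) : Bool := (List.range n).all p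

/-- Bounded existential quantifier. -/
def ex (n : ℕ) (p : ℕ → Bool) : Bool := (List.range n).any p

theorem fa_spec {n : ℕ} {p : ℕ → Bool} (h : fa n p = true) {i : ℕ} (hi : i < n) : p i = true :=
  List.all_eq_true.mp h i (List.mem_range.mpr hi)

theorem ex_spec {n : ℕ} {p : ℕ → Bool} (h : ex n p = true) : ∃ i < n, p i = true := by
  obtain ⟨i, hi, h⟩ := List.any_eq_true.mp h
  exact ⟨i, List.mem_range.mp hi, h⟩

/-- Admissible pairs of roots. -/
def okA (r s : ℕ) : Bool :=
  Nat.blt r D.n && Nat.blt s D.n && !(Nat.beq s r) && !(Nat.beq s (D.ng r))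

/-- Admissible pairs in a rank two subsystem. -/
def ok2 (i j r s : ℕ) : Bool := D.in2 i j r && D.in2 i j s && D.okA r s

/-- Membership in some rank two subsystem. -/
def any2 (r : ℕ) : Bool := ex D.l fun i => ex D.l fun j => D.in2 i j r

/-- The square of a fundamental reflection. -/
def eps (i r : ℕ) : Bool := xor (D.sg i (D.w i r)) (D.sg i r)

/-- Endpoint of a path. -/
def pw (A : List ℕ) (d : ℕ) : ℕ := A.foldr D.w d

/-- Sign of a path. -/
def ps : List ℕ → ℕ → Bool
  | [], _ => false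
  | k :: A, d => xor (D.sg k (D.pw A d)) (ps A d)

/-- Availability of a path. -/
def pa (av : ℕ → ℕ → Bool) : List ℕ → ℕ → Bool
  | [], _ => true
  | k :: A, d => av k (D.pw A d) && pa av A d

/-- Basic properties of the tables. -/
def c0 : Bool :=
  fa D.l (fun i => Nat.blt (D.sp i) D.n) &&
  fa D.n (fun r => Nat.blt (D.ng r) D.n && Nat.beq (D.ng (D.ng r)) r) &&
  fa D.l (fun i => fa D.n fun r => Nat.blt (D.w i r) D.n && Nat.beq (D.w i (D.w i r)) r &&
    Nat.beq (D.w i (D.ng r)) (D.ng (D.w i r)) && (D.sg i (D.ng r) == D.sg i r))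

/-- Reflections inside rank two subsystems. -/
def cA : Bool := fa D.l fun i => fa D.l fun j => fa D.n fun s =>
  !(D.in2 i j s) || Nat.beq s (D.sp i) || Nat.beq s (D.ng (D.sp i)) || D.symA (D.ok2 i j) i s

/-- Certificate for the action on the root itself. -/
def cB1 (i j a s1 s2 : ℕ) : Bool :=
  D.ok2 i j s1 s2 && D.symA (D.ok2 i j) i s1 && D.symA (D.ok2 i j) i s2 &&
    D.ok2 i j (D.w i s1) (D.w i s2) &&
    [false, true].any fun e => decide (D.ct s1 s2 = [(a, sI e, 1, 1)]) &&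
      decide (D.ct (D.w i s1) (D.w i s2) =
        [(D.w i a, sI (xor (xor (D.sg i a) e) (xor (D.sg i s1) (D.sg i s2))), 1, 1)])

/-- The action on the root itself. -/
def cB : Bool := fa D.l fun i => [D.sp i, D.ng (D.sp i)].all fun a =>
  ex D.l fun j => ex D.n fun s1 => D.in2 i j s1 && ex D.n fun s2 => D.cB1 i j a s1 s2

/-- Fundamental roots and their negatives. -/
def isS (r : ℕ) : Bool := ex D.l fun k => Nat.beq r (D.sp k) || Nat.beq r (D.ng (D.sp k))

/-- Descents. -/
def cD : Bool := fa D.n fun r => D.isS r ||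
  (Nat.blt (D.jd r) D.l && Nat.blt (D.mu (D.w (D.jd r) r)) (D.mu r) &&
    (!(D.any2 r) || ex D.l fun k => D.in2 (D.jd r) k (D.w (D.jd r) r)) &&
    fa D.l fun i => D.eps i r == xor (D.eps i (D.w (D.jd r) r))
      (D.eps i (D.sp (D.jd r)) && D.eps (D.jd r) (D.w (D.jd r) r)))

/-- Fundamental roots lie in rank two subsystems. -/
def cE : Bool := fa D.l fun i => fa D.l fun k => [D.sp k, D.ng (D.sp k)].all fun a =>
  D.in2 i k a && D.in2 k i a && D.in2 i k (D.w i a)

/-- Availability in a rank two subsystem. -/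
def av2 (i j k d : ℕ) : Bool :=
  Nat.blt d D.n && ((Nat.beq k i && D.in2 i j d) || (Nat.beq k j && D.in2 j i d))

/-- Availability by induction. -/
def avI (c k d : ℕ) : Bool :=
  Nat.blt k D.l && Nat.blt d D.n &&
    ((Nat.blt (D.mu d) (D.mu c) && Nat.blt (D.mu (D.w k d)) (D.mu c)) ||
      (Nat.beq k (D.jd c) && Nat.beq d (D.w k c)))

/-- A braid relation and its use. -/
def cF1 (c i : ℕ) (A : List ℕ) (k : ℕ) : Bool :=
  D.pa (D.av2 i (D.jd c)) A (D.sp k) && Nat.beq (D.pw A (D.sp k)) (D.sp i) &&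
    !(D.ps A (D.sp k)) &&
  D.pa (D.av2 i (D.jd c)) A (D.ng (D.sp k)) && Nat.beq (D.pw A (D.ng (D.sp k))) (D.ng (D.sp i)) &&
    !(D.ps A (D.ng (D.sp k))) &&
  D.pa (D.avI c) A (D.pw A.reverse (D.w i c)) &&
    Nat.beq (D.pw A (D.pw A.reverse (D.w i c))) (D.w i c) &&
  D.pa (D.avI c) (A ++ [k]) (D.pw A.reverse (D.w i c)) &&
    Nat.beq (D.pw (A ++ [k]) (D.pw A.reverse (D.w i c))) c &&
  (xor (D.ps (A ++ [k]) (D.pw A.reverse (D.w i c))) (D.ps A (D.pw A.reverse (D.w i c))) ==
    D.sg i (D.w i c))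

/-- All reflections. -/
def cF : Bool := fa D.n fun c => fa D.l fun i =>
  Nat.blt (D.mu c) (D.mu (D.w i c)) || D.isS c || Nat.beq i (D.jd c) || D.in2 i (D.jd c) (D.w i c) ||
    D.cF1 c i [D.jd c] i || D.cF1 c i [D.jd c, i] (D.jd c) || D.cF1 c i [D.jd c, i, D.jd c] i

/-- Compatibility of structure constants with a reflection. -/
def compat (i r s : ℕ) : Bool :=
  (D.ct r s).all (fun c => Nat.blt c.1 D.n) &&
  decide (D.ct (D.w i r) (D.w i s) = (D.ct r s).map fun c =>
    (D.w i c.1, sI (D.sg i c.1) * c.2.1 * sI (D.sg i r) ^ c.2.2.1 * sI (D.sg i s) ^ c.2.2.2,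
      c.2.2.1, c.2.2.2))

/-- Reduction of a pair of roots. -/
def cC1 (r s : ℕ) : Bool :=
  !(D.okA r s) ||
    (ex D.l fun i => Nat.blt (D.mu (D.w i r) + D.mu (D.w i s)) (D.mu r + D.mu s) &&
      D.compat i r s) ||
    ex D.l fun i => ex D.l fun j => D.in2 i j r && D.in2 i j s

end checks

section paths

theorem path_spec {av : ℕ → ℕ → Bool} (hav : ∀ k d, av k d = true → D.F X k d) :
    ∀ (A : List ℕ) (d : ℕ), D.pa av A d = true →
      Cj X (A.map (D.N X)).prod d (D.pw A d) (D.ps A d)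
  | [], d, _ => Cj.one X d
  | k :: A, d, h => by
    simp only [pa, Bool.and_eq_true] at h
    rw [List.map_cons, List.prod_cons]
    exact (path_spec hav A d h.2).mul (hav _ _ h.1)

end paths

section main

variable (hA : ∀ r, AddR X r)
  (hC : ∀ i j r s, i < D.l → j < D.l → D.ok2 i j r s = true → D.Comm X r s)
  (h0 : D.c0 = true) (h1 : D.cA = true) (h2 : D.cB = true)

include h0 in
theorem c0_spec : (∀ i < D.l, D.sp i < D.n) ∧ (∀ r < D.n, D.ng r < D.n ∧ D.ng (D.ng r) = r) ∧
    ∀ i < D.l, ∀ r < D.n, D.w i r < D.n ∧ D.w i (D.w i r) = r ∧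
      D.w i (D.ng r) = D.ng (D.w i r) ∧ D.sg i (D.ng r) = D.sg i r := by
  simp only [c0, Bool.and_eq_true] at h0
  refine ⟨fun i hi => ?_, fun r hr => ?_, fun i hi r hr => ?_⟩
  · simpa using fa_spec h0.1.1 hi
  · simpa using fa_spec h0.1.2 hr
  · simpa [and_assoc] using fa_spec (fa_spec h0.2 hi) hr

include hA hC h1 h2 in
theorem F_base {i j s : ℕ} (hi : i < D.l) (hj : j < D.l) (hs : s < D.n)
    (h : D.in2 i j s = true) : D.F X i s := by
  have key : ∀ a ∈ [D.sp i, D.ng (D.sp i)], D.F X i a := by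
    intro a ha
    obtain ⟨j, hj, h3⟩ := ex_spec (List.all_eq_true.mp (fa_spec h2 hi) a ha)
    obtain ⟨s1, -, h3⟩ := ex_spec h3
    simp only [Bool.and_eq_true] at h3
    obtain ⟨s2, -, h3⟩ := ex_spec h3.2
    simp only [cB1, Bool.and_eq_true, List.any_eq_true, decide_eq_true_eq] at h3
    obtain ⟨⟨⟨⟨k1, k2⟩, k3⟩, k4⟩, e, -, k5, k6⟩ := h3
    have f1 := F_of_symA hA (hC i j · · hi hj) k2
    have f2 := F_of_symA hA (hC i j · · hi hj) k3
    intro u
    have c1 := hC i j _ _ hi hj k1 (-1) ((sI e : ℤ) * u)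
    have c2 := hC i j _ _ hi hj k4 ((sI (D.sg i s1) : ℤ) * (-1))
      ((sI (D.sg i s2) : ℤ) * ((sI e : ℤ) * u))
    simp only [cw, k5, k6, List.map_cons, List.map_nil, List.prod_cons, List.prod_nil, mul_one,
      pow_one, neg_neg] at c1 c2
    rw [← mul_assoc ((sI e : ℤ) : K), sK_mul_self, one_mul] at c1
    have e1 : ((sI (xor (xor (D.sg i a) e) (xor (D.sg i s1) (D.sg i s2))) : ℤ) : K) *
        -(((sI (D.sg i s1) : ℤ) : K) * -1) * ((sI (D.sg i s2) : ℤ) * ((sI e : ℤ) * u)) =
        (sI (D.sg i a) : ℤ) * u := by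
      cases D.sg i a <;> cases e <;> cases D.sg i s1 <;> cases D.sg i s2 <;> simp [sI]
    rw [e1, ← f1, ← f2] at c2
    rw [← c1, ← c2]
    group
  have := fa_spec (fa_spec (fa_spec h1 hi) hj) hs
  simp only [h, Bool.not_true, Bool.false_or, Bool.or_eq_true, Nat.beq_eq] at this
  rcases this with (e | e) | e
  · exact key s (by simp [e])
  · exact key s (by simp [e])
  · exact F_of_symA hA (hC i j · · hi hj) e

variable (h3 : D.cD = true) (h4 : D.cE = true) (h5 : D.cF = true)
  (hD : ∀ r < D.n, D.isS r = false → D.any2 r = false → D.F X (D.jd r) (D.w (D.jd r) r))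

include h3 in
theorem cD_spec {r : ℕ} (hr : r < D.n) (hs : D.isS r = false) :
    D.jd r < D.l ∧ D.mu (D.w (D.jd r) r) < D.mu r ∧
      (D.any2 r = true → ∃ k < D.l, D.in2 (D.jd r) k (D.w (D.jd r) r) = true) ∧
      ∀ i < D.l, D.eps i r = xor (D.eps i (D.w (D.jd r) r))
        (D.eps i (D.sp (D.jd r)) && D.eps (D.jd r) (D.w (D.jd r) r)) := by
  have := fa_spec h3 hr
  simp only [hs, Bool.false_or, Bool.and_eq_true, Nat.blt_eq, Bool.or_eq_true,
    Bool.not_eq_true'] at this
  obtain ⟨⟨⟨k1, k2⟩, k3⟩, k4⟩ := this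
  refine ⟨k1, k2, fun h => ?_, fun i hi => by simpa using fa_spec k4 hi⟩
  rcases k3 with k3 | k3
  · rw [h] at k3; cases k3
  · exact ex_spec k3

include h4 in
theorem isS_spec {r : ℕ} (hs : D.isS r = true) : ∃ k < D.l, ∀ i < D.l,
    D.in2 i k r = true ∧ D.in2 i k (D.w i r) = true := by
  obtain ⟨k, hk, h⟩ := ex_spec hs
  refine ⟨k, hk, fun i hi => ?_⟩
  have := List.all_eq_true.mp (fa_spec (fa_spec h4 hi) hk) r (by simpa using h)
  simp only [Bool.and_eq_true] at this
  exact ⟨this.1.1, this.2⟩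

include hA hC h0 h1 h2 h3 hD in
theorem F_desc {r : ℕ} (hr : r < D.n) (hs : D.isS r = false) :
    D.F X (D.jd r) (D.w (D.jd r) r) := by
  obtain ⟨k1, -, k3, -⟩ := cD_spec h3 hr hs
  cases h : D.any2 r
  · exact hD r hr hs h
  · obtain ⟨k, hk, h'⟩ := k3 h
    exact F_base hA hC h1 h2 k1 hk ((c0_spec h0).2.2 _ k1 r hr).1 h'

include hA hC h0 h1 h2 h3 h4 hD in
theorem sq_spec (r : ℕ) (hr : r < D.n) : ∀ i < D.l, Cj X (D.N X i * D.N X i) r r (D.eps i r) := by
  obtain ⟨b1, b2, b3⟩ := c0_spec h0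
  have base : ∀ r < D.n, D.isS r = true → ∀ i < D.l,
      Cj X (D.N X i * D.N X i) r r (D.eps i r) := by
    intro r hr hs i hi
    obtain ⟨k, hk, h⟩ := isS_spec h4 hs
    have := Cj.mul (F_base hA hC h1 h2 hi hk hr (h i hi).1)
      (F_base hA hC h1 h2 hi hk (b3 i hi r hr).1 (h i hi).2)
    rwa [(b3 i hi r hr).2.1] at this
  induction hm : D.mu r using Nat.strong_induction_on generalizing r with
  | _ m ih =>
    cases hs : D.isS r
    swap
    · exact base r hr hs
    obtain ⟨k1, k2, -, k4⟩ := cD_spec h3 hr hs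
    have hF := F_desc hA hC h0 h1 h2 h3 hD hr hs
    set j := D.jd r with hj
    have hr' := (b3 j k1 r hr).1
    have ih' := ih _ (hm ▸ k2) _ hr' rfl
    unfold F at hF
    rw [(b3 j k1 r hr).2.1] at hF
    intro i hi
    have s1 : D.isS (D.sp j) = true := List.any_eq_true.mpr ⟨j, List.mem_range.mpr k1, by simp⟩
    have s2 : D.isS (D.ng (D.sp j)) = true :=
      List.any_eq_true.mpr ⟨j, List.mem_range.mpr k1, by simp⟩
    have q1 := base _ (b1 j k1) s1 i hi
    have q2 := base _ (b2 _ (b1 j k1)).1 s2 i hi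
    have e : D.eps i (D.ng (D.sp j)) = D.eps i (D.sp j) := by
      have := b3 i hi _ (b1 j k1)
      simp only [eps, this.2.2.1, this.2.2.2, (b3 i hi _ this.1).2.2.2]
    rw [e] at q2
    have q3 := conj_nn q1 q2 1
    rw [k4 i hi]
    have ihi := ih' i hi
    have ihj := ih' j k1
    generalize D.N X i * D.N X i = m at q3 ihi ⊢
    cases he : D.eps i (D.sp j)
    · rw [he] at q3
      simp only [sI, cond_false, Int.cast_one, one_mul] at q3
      have e1 : m = D.N X j * (m * (D.N X j)⁻¹) := by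
        nth_rewrite 1 [N]; rw [← q3]; simp only [N]; group
      have := (hF.inv.mul ihi).mul hF
      rw [← e1] at this
      convert this using 1
      cases D.eps i (D.w j r) <;> cases D.sg j (D.w j r) <;> rfl
    · rw [he] at q3
      simp only [sI, cond_true, Int.cast_neg, Int.cast_one, neg_mul, one_mul] at q3
      rw [nn_neg hA] at q3
      have e1 : m = D.N X j * ((D.N X j * D.N X j)⁻¹ * (m * (D.N X j)⁻¹)) := by
        have : m * (D.N X j)⁻¹ = D.N X j * m := by
          calc m * (D.N X j)⁻¹ = (m * D.nn X (D.sp j) 1 * m⁻¹)⁻¹ * m := by simp only [N]; group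
            _ = _ := by rw [q3, inv_inv]; rfl
        rw [this]; group
      have := ((hF.inv.mul ihi).mul ihj.inv).mul hF
      rw [← e1] at this
      convert this using 1
      cases D.eps i (D.w j r) <;> cases D.sg j (D.w j r) <;> cases D.eps j (D.w j r) <;> rfl

include hA hC h0 h1 h2 h3 h4 h5 hD in
theorem F_all {i r : ℕ} (hi : i < D.l) (hr : r < D.n) : D.F X i r := by
  obtain ⟨b1, b2, b3⟩ := c0_spec h0
  have flip : ∀ i < D.l, ∀ r < D.n, D.F X i (D.w i r) → D.F X i r := by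
    intro i hi r hr h
    unfold F at h ⊢
    rw [(b3 i hi r hr).2.1] at h
    have := (sq_spec hA hC h0 h1 h2 h3 h4 hD r hr i hi).mul h.inv
    rw [inv_mul_cancel_left] at this
    convert this using 1
    simp only [eps]
    cases D.sg i (D.w i r) <;> cases D.sg i r <;> rfl
  suffices H : ∀ m, ∀ c < D.n, D.mu c = m → ∀ i < D.l, D.mu (D.w i c) ≤ D.mu c →
      D.F X i (D.w i c) by
    rcases le_total (D.mu (D.w i r)) (D.mu r) with h | h
    · exact flip i hi r hr (H _ r hr rfl i hi h)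
    · have := H _ (D.w i r) (b3 i hi r hr).1 rfl i hi (by rwa [(b3 i hi r hr).2.1])
      rwa [(b3 i hi r hr).2.1] at this
  intro m
  induction m using Nat.strong_induction_on with
  | _ m ih =>
    intro c hc hm i hi hle
    cases hs : D.isS c
    swap
    · obtain ⟨k, hk, h⟩ := isS_spec h4 hs
      exact F_base hA hC h1 h2 hi hk (b3 i hi c hc).1 (h i hi).2
    obtain ⟨k1, -⟩ := cD_spec h3 hc hs
    have hF := F_desc hA hC h0 h1 h2 h3 hD hc hs
    have hav2 : ∀ k d, D.av2 i (D.jd c) k d = true → D.F X k d := by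
      intro k d h
      simp only [av2, Bool.and_eq_true, Bool.or_eq_true, Nat.blt_eq, Nat.beq_eq] at h
      rcases h.2 with ⟨rfl, h'⟩ | ⟨rfl, h'⟩
      · exact F_base hA hC h1 h2 hi k1 h.1 h'
      · exact F_base hA hC h1 h2 k1 hi h.1 h'
    have havI : ∀ k d, D.avI c k d = true → D.F X k d := by
      intro k d h
      simp only [avI, Bool.and_eq_true, Bool.or_eq_true, Nat.blt_eq, Nat.beq_eq] at h
      obtain ⟨⟨hk, hd⟩, ⟨l1, l2⟩ | ⟨rfl, rfl⟩⟩ := h
      · rcases le_total (D.mu (D.w k d)) (D.mu d) with h | h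
        · exact flip k hk d hd (ih _ (hm ▸ l1) d hd rfl k hk h)
        · have := ih _ (hm ▸ l2) (D.w k d) (b3 k hk d hd).1 rfl k hk
            (by rwa [(b3 k hk d hd).2.1])
          rwa [(b3 k hk d hd).2.1] at this
      · exact hF
    have braid : ∀ A k, D.cF1 c i A k = true → D.F X i (D.w i c) := by
      intro A k h
      simp only [cF1, Bool.and_eq_true, Nat.beq_eq, Bool.not_eq_true', beq_iff_eq] at h
      obtain ⟨⟨⟨⟨⟨⟨⟨⟨⟨⟨p1, p2⟩, p3⟩, p4⟩, p5⟩, p6⟩, p7⟩, p8⟩, p9⟩, p10⟩, p11⟩ := h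
      have q1 := path_spec hav2 A _ p1
      have q2 := path_spec hav2 A _ p4
      rw [p2, p3] at q1
      rw [p5, p6] at q2
      have q3 := conj_nn q1 q2 1
      simp only [sI, cond_false, Int.cast_one, one_mul] at q3
      have q4 := path_spec havI A _ p7
      have q5 := path_spec havI _ _ p9
      rw [p8] at q4
      rw [p10] at q5
      have q6 := q4.inv.mul q5
      rw [p11, List.map_append, List.prod_append] at q6
      unfold F
      rw [(b3 i hi c hc).2.1]
      convert q6 using 1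
      simp only [N]
      rw [← q3]
      simp [N]
    have := fa_spec (fa_spec h5 hc) hi
    simp only [hs, Bool.or_false, Bool.or_eq_true, Nat.blt_eq, Nat.beq_eq] at this
    rcases this with ((((h | h) | h) | h) | h) | h
    · omega
    · rw [h]; exact hF
    · exact F_base hA hC h1 h2 hi k1 (b3 i hi c hc).1 h
    · exact braid _ _ h
    · exact braid _ _ h
    · exact braid _ _ h

theorem okA_iff {r s : ℕ} : D.okA r s = true ↔ r < D.n ∧ s < D.n ∧ s ≠ r ∧ s ≠ D.ng r := by
  simp only [okA, Bool.and_eq_true, Nat.blt_eq, Bool.not_eq_true', and_assoc,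
    ← Bool.not_eq_true, Nat.beq_eq, ne_eq]

include hC h0 in
theorem comm_all (hF : ∀ i < D.l, ∀ r < D.n, D.F X i r)
    (h6 : ∀ r < D.n, ∀ s < D.n, D.cC1 r s = true) (r s : ℕ) (h : D.okA r s = true) :
    D.Comm X r s := by
  obtain ⟨b1, b2, b3⟩ := c0_spec h0
  induction hm : D.mu r + D.mu s using Nat.strong_induction_on generalizing r s with
  | _ m ih =>
    obtain ⟨hr, hs, n1, n2⟩ := okA_iff.mp h
    have := h6 r hr s hs
    simp only [cC1, h, Bool.not_true, Bool.false_or, Bool.or_eq_true] at this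
    rcases this with h' | h'
    · obtain ⟨i, hi, h'⟩ := ex_spec h'
      simp only [compat, Bool.and_eq_true, Nat.blt_eq, decide_eq_true_eq, List.all_eq_true] at h'
      obtain ⟨l1, l2, l3⟩ := h'
      have hok : D.okA (D.w i r) (D.w i s) = true := by
        refine okA_iff.mpr ⟨(b3 i hi r hr).1, (b3 i hi s hs).1, fun e => n1 ?_, fun e => n2 ?_⟩
        · rw [← (b3 i hi s hs).2.1, e, (b3 i hi r hr).2.1]
        · rw [← (b3 i hi s hs).2.1, e, ← (b3 i hi r hr).2.2.1, (b3 i hi _ (b2 r hr).1).2.1]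
      have c1 := ih _ (hm ▸ l1) _ _ hok rfl
      intro t u
      have c2 := c1 ((sI (D.sg i r) : ℤ) * t) ((sI (D.sg i s) : ℤ) * u)
      rw [← hF i hi r hr, ← hF i hi s hs] at c2
      apply (MulAut.conj (D.N X i)).injective
      simp only [cw, map_list_prod, List.map_map] at c2 ⊢
      rw [l3, List.map_map] at c2
      convert c2 using 1
      · simp only [MulAut.conj_apply]; group
      · congr 1
        apply List.map_congr_left
        intro c hc
        simp only [Function.comp, MulAut.conj_apply]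
        rw [hF i hi _ (l2 c hc)]
        congr 1
        have e1 : ∀ (b : Bool) (k : ℕ), ((sI b : ℤ) : K) ^ k * ((sI b : ℤ) : K) ^ k = 1 :=
          fun b k => by rw [← mul_pow, sK_mul_self, one_pow]
        push_cast
        rw [← mul_neg, mul_pow, mul_pow]
        linear_combination (-((sI (D.sg i c.1) : ℤ) : K) * c.2.1 * (-t) ^ c.2.2.1 * u ^ c.2.2.2) *
          (e1 (D.sg i r) c.2.2.1 * (((sI (D.sg i s) : ℤ) : K) ^ c.2.2.2 *
            ((sI (D.sg i s) : ℤ) : K) ^ c.2.2.2) + e1 (D.sg i s) c.2.2.2)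
    · obtain ⟨i, hi, h'⟩ := ex_spec h'
      obtain ⟨j, hj, h'⟩ := ex_spec h'
      exact hC i j r s hi hj (by simp only [ok2, h', h, Bool.and_self])

include hA h0 h3 in
theorem hm_all (hF : ∀ i < D.l, ∀ r < D.n, D.F X i r)
    (hH : ∀ r < D.n, D.isS r = true → D.Hm X r) (r : ℕ) (hr : r < D.n) : D.Hm X r := by
  obtain ⟨b1, b2, b3⟩ := c0_spec h0
  induction hm : D.mu r using Nat.strong_induction_on generalizing r with
  | _ m ih =>
    cases hs : D.isS r
    swap
    · exact hH r hr hs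
    obtain ⟨k1, k2, -⟩ := cD_spec h3 hr hs
    have hr' := (b3 _ k1 r hr).1
    have f1 := hF _ k1 _ hr'
    have f2 := hF _ k1 _ (b2 _ hr').1
    unfold F at f1 f2
    rw [(b3 _ k1 _ hr').2.2.1, (b3 _ k1 _ hr').2.2.2] at f2
    rw [(b3 _ k1 r hr).2.1] at f1 f2
    exact Hm.of_cj hA f1 f2 (ih _ (hm ▸ k2) _ hr' rfl)

end main

end Dat

end Cfsg.Agent.H2.CT
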