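import Mathlib
import Cfsg.Prelude.Def_CurtisTits
import Cfsg.Agent.H2.CT

/-!
The Curtis-Tits theorem from verified tables.
-/

set_option autoImplicit false

namespace Cfsg.Agent.H2.CT

open Cfsg.Lie

namespace Dat

variable (T : Dat)

/-- Closure of the rank two subsystems. -/
def cT : Bool := fa T.l fun i => fa T.l fun j => fa T.n fun r => !(T.in2 i j r) ||
  (T.in2 i j (T.ng r) && fa T.n fun s => !(T.in2 i j s) ||
    (T.ct r s).all fun c => T.in2 i j c.1 && Nat.blt c.1 T.n)

/-- Descents in the Steinberg group. -/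
def cS : Bool := fa T.n fun r => T.any2 r || T.symA T.okA (T.jd r) (T.w (T.jd r) r)

variable {K : Type*} [Field K] {G : Type*} [Group G]

/-- Root elements for all roots. -/
def yy (x : ℕ → K → G) (r : ℕ) (t : K) : G :=
  if r < T.n ∧ T.any2 r = false ∧ T.mu (T.w (T.jd r) r) < T.mu r then
    T.N x (T.jd r) * yy x (T.w (T.jd r) r) ((sI (T.sg (T.jd r) (T.w (T.jd r) r)) : ℤ) * t) *
      (T.N x (T.jd r))⁻¹
  else x r t
termination_by T.mu r
decreasing_by omega

variable {T}

theorem yy_of_any2 (x : ℕ → K → G) {r : ℕ} (h : T.any2 r = true) : T.yy x r = x r := by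
  funext t; rw [yy, if_neg]; simp [h]

theorem yy_of_le (x : ℕ → K → G) {r : ℕ} (h : ¬ r < T.n) : T.yy x r = x r := by
  funext t; rw [yy, if_neg]; simp [h]

theorem yy_add {x : ℕ → K → G} (hA : ∀ r, AddR x r) (r : ℕ) : AddR (T.yy x) r := by
  induction hm : T.mu r using Nat.strong_induction_on generalizing r with
  | _ m ih =>
    intro t u
    by_cases h : r < T.n ∧ T.any2 r = false ∧ T.mu (T.w (T.jd r) r) < T.mu r
    · rw [yy, yy.eq_1 T x r u, yy.eq_1 T x r (t + u), if_pos h, if_pos h, if_pos h, mul_add,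
        ← ih _ (hm ▸ h.2.2) _ rfl]
      group
    · rw [yy, yy.eq_1 T x r u, yy.eq_1 T x r (t + u), if_neg h, if_neg h, if_neg h, hA]

theorem any2_of_in2 {i j r : ℕ} (hi : i < T.l) (hj : j < T.l) (h : T.in2 i j r = true) :
    T.any2 r = true :=
  List.any_eq_true.mpr ⟨i, List.mem_range.mpr hi, List.any_eq_true.mpr ⟨j, List.mem_range.mpr hj, h⟩⟩

end Dat

/-- The tables agree with the datum. -/
structure Agree (D : ChevalleyDatum) (T : Dat) : Prop where
  hn : T.n = D.nroots
  hl : T.l = D.rank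
  ng : ∀ r < T.n, T.ng r = D.neg r
  ct : ∀ r < T.n, ∀ s < T.n, T.ct r s = D.commTerms r s
  in2 : ∀ i < T.l, ∀ j < T.l, ∀ r < T.n, (T.in2 i j r = true ↔ D.InRankTwoSub i j r)

/-- All checks. -/
structure Checks (T : Dat) : Prop where
  h0 : T.c0 = true
  h1 : T.cA = true
  h2 : T.cB = true
  h3 : T.cD = true
  h4 : T.cE = true
  h5 : T.cF = true
  h6 : ∀ r < T.n, ∀ s < T.n, T.cC1 r s = true
  h7 : T.cT = true
  h8 : T.cS = true

variable {D : ChevalleyDatum} {T : Dat} {K : Type*} [Field K] {G : Type*} [Group G]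

theorem map_comm (hA : Agree D T) (f : FreeGroup (Fin D.nroots × K) →* G) {X : ℕ → K → G} {r s : ℕ}
    (hr : r < T.n) (hs : s < T.n) (h1 : ∀ t, f (D.stX r t) = X r t)
    (h2 : ∀ t, f (D.stX s t) = X s t) (h3 : ∀ c ∈ T.ct r s, ∀ t, f (D.stX c.1 t) = X c.1 t)
    (t u : K) :
    f ((D.stX s u)⁻¹ * (D.stX r t)⁻¹ * D.stX s u * D.stX r t *
      (D.stWord (D.commWord K r s t u))⁻¹) = 1 ↔
    (X s u)⁻¹ * (X r t)⁻¹ * X s u * X r t = T.cw X r s t u := by
  have : f (D.stWord (D.commWord K r s t u)) = T.cw X r s t u := by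
    simp only [ChevalleyDatum.stWord, ChevalleyDatum.commWord, Dat.cw, map_list_prod,
      List.map_map, ← hA.ct r hr s hs]
    congr 1
    apply List.map_congr_left
    intro c hc
    exact h3 c hc _
  simp only [map_mul, map_inv, h1, h2, this, mul_inv_eq_one]

theorem map_h (hA : Agree D T) (f : FreeGroup (Fin D.nroots × K) →* G) {X : ℕ → K → G} {r : ℕ}
    (hr : r < T.n) (h1 : ∀ t, f (D.stX r t) = X r t)
    (h2 : ∀ t, f (D.stX (T.ng r) t) = X (T.ng r) t) (t₁ t₂ : K) :
    f (D.stH r t₁ * D.stH r t₂ * (D.stH r (t₁ * t₂))⁻¹) = 1 ↔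
    (T.nn X r t₁ * T.nn X r (-1)) * (T.nn X r t₂ * T.nn X r (-1)) =
      T.nn X r (t₁ * t₂) * T.nn X r (-1) := by
  have : ∀ t, f (D.stH r t) = T.nn X r t * T.nn X r (-1) := by
    intro t
    simp only [ChevalleyDatum.stH, ChevalleyDatum.stWord, ChevalleyDatum.hWord,
      ChevalleyDatum.nWord, Dat.nn, ← hA.ng r hr, List.map_append, List.map_cons, List.map_nil,
      List.prod_append, List.prod_cons, List.prod_nil, map_mul, h1, h2, mul_one, mul_assoc]
  simp only [map_mul, map_inv, this, mul_inv_eq_one]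

theorem mk_eq_one {α : Type*} {rels : Set (FreeGroup α)} {g : FreeGroup α} (h : g ∈ rels) :
    PresentedGroup.mk rels g = 1 := PresentedGroup.one_of_mem h

theorem curtis_tits (hA : Agree D T) (hc : Checks T) (K : Type*) [Field K] :
    ∃ e : D.CurtisTitsGroup K ≃* D.SteinbergGroup K,
      ∀ (i j r : ℕ) (t : K), D.InRankTwoSub i j r →
        e (PresentedGroup.mk (D.curtisTitsRels K) (D.stX r t)) = D.stGen K r t := by
  obtain ⟨b1, b2, b3⟩ := Dat.c0_spec hc.h0
  have in2' : ∀ i j r, D.InRankTwoSub i j r →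
      i < T.l ∧ j < T.l ∧ r < T.n ∧ T.in2 i j r = true := by
    intro i j r h
    have hi : i < T.l := hA.hl ▸ h.2.1
    have hj : j < T.l := hA.hl ▸ h.2.2.1
    have hr : r < T.n := hA.hn ▸ h.1
    exact ⟨hi, hj, hr, (hA.in2 i hi j hj r hr).mpr h⟩
  have cT' : ∀ i < T.l, ∀ j < T.l, ∀ r < T.n, T.in2 i j r = true → T.in2 i j (T.ng r) = true ∧
      ∀ s < T.n, T.in2 i j s = true → ∀ c ∈ T.ct r s, T.in2 i j c.1 = true ∧ c.1 < T.n := by
    intro i hi j hj r hr h
    have := Dat.fa_spec (Dat.fa_spec (Dat.fa_spec hc.h7 hi) hj) hr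
    simp only [h, Bool.not_true, Bool.false_or, Bool.and_eq_true] at this
    refine ⟨this.1, fun s hs h' c hc => ?_⟩
    have h2 := Dat.fa_spec this.2 hs
    simp only [h', Bool.not_true, Bool.false_or, List.all_eq_true, Bool.and_eq_true,
      Nat.blt_eq] at h2
    exact h2 c hc
  have spS : ∀ j < T.l, T.any2 (T.sp j) = true ∧ T.any2 (T.ng (T.sp j)) = true := by
    intro j hj
    have := Dat.fa_spec (Dat.fa_spec hc.h4 hj) hj
    simp only [List.all_cons, List.all_nil, Bool.and_eq_true] at this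
    exact ⟨Dat.any2_of_in2 hj hj this.1.1.1, Dat.any2_of_in2 hj hj this.2.1.1.1⟩
  have anyS : ∀ r, T.isS r = true → T.any2 r = true := by
    intro r h
    obtain ⟨k, hk, h'⟩ := Dat.isS_spec hc.h4 h
    exact Dat.any2_of_in2 hk hk (h' k hk).1
  have notS : ∀ r, T.any2 r = false → T.isS r = false := by
    intro r h
    cases h' : T.isS r
    · rfl
    · rw [anyS r h'] at h; cases h
  -- the Curtis-Tits group
  let x : ℕ → K → D.CurtisTitsGroup K := fun r t => PresentedGroup.mk _ (D.stX r t)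
  have x0 : ∀ r, (r < T.n → T.any2 r = false) → ∀ t, x r t = 1 := by
    intro r h t
    by_cases hr : r < T.n
    · refine mk_eq_one (Or.inl (Or.inl (Or.inl ⟨r, t, hA.hn ▸ hr, fun i j h' => ?_, rfl⟩)))
      obtain ⟨hi, hj, -, h2⟩ := in2' i j r h'
      have := h hr
      rw [Dat.any2_of_in2 hi hj h2] at this
      cases this
    · simp only [x, ChevalleyDatum.stX, dif_neg (hA.hn ▸ hr), map_one]
  have xA : ∀ r, AddR x r := by
    intro r t u
    by_cases h : r < T.n → T.any2 r = false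
    · simp [x0 r h]
    · push Not at h
      obtain ⟨i, hi, h'⟩ := Dat.ex_spec (by simpa using h.2 : T.any2 r = true)
      obtain ⟨j, hj, h'⟩ := Dat.ex_spec h'
      have := mk_eq_one (rels := D.curtisTitsRels K)
        (Or.inl (Or.inl (Or.inr ⟨i, j, r, t, u, (hA.in2 i hi j hj r h.1).mp h', rfl⟩)))
      simpa only [map_mul, map_inv, mul_inv_eq_one] using this
  let y := T.yy x
  have yA : ∀ r, AddR y r := Dat.yy_add xA
  have yx : ∀ i j r, i < T.l → j < T.l → T.in2 i j r = true → ∀ t, x r t = y r t :=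
    fun i j r hi hj h t => (congrFun (Dat.yy_of_any2 x (Dat.any2_of_in2 hi hj h)) t).symm
  have yC : ∀ i j r s, i < T.l → j < T.l → T.ok2 i j r s = true → T.Comm y r s := by
    intro i j r s hi hj h t u
    simp only [Dat.ok2, Bool.and_eq_true, Dat.okA_iff] at h
    obtain ⟨⟨h1, h2⟩, hr, hs, n1, n2⟩ := h
    rw [← map_comm hA (PresentedGroup.mk (D.curtisTitsRels K)) hr hs (yx i j r hi hj h1)
      (yx i j s hi hj h2) (fun c hc => yx i j _ hi hj ((cT' i hi j hj r hr h1).2 s hs h2 c hc).1)]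
    exact mk_eq_one (Or.inl (Or.inr ⟨i, j, r, s, t, u, (hA.in2 i hi j hj r hr).mp h1,
      (hA.in2 i hi j hj s hs).mp h2, n1, hA.ng r hr ▸ n2, rfl⟩))
  have yN : ∀ j < T.l, T.N y j = T.N x j := by
    intro j hj
    simp only [Dat.N, Dat.nn, y, Dat.yy_of_any2 x (spS j hj).1, Dat.yy_of_any2 x (spS j hj).2]
  have yD : ∀ r < T.n, T.isS r = false → T.any2 r = false → T.F y (T.jd r) (T.w (T.jd r) r) := by
    intro r hr hs h t
    obtain ⟨k1, k2, -⟩ := Dat.cD_spec hc.h3 hr hs
    rw [(b3 _ k1 r hr).2.1, yN _ k1]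
    simp only [y]
    rw [Dat.yy.eq_1 T x r, if_pos ⟨hr, h, k2⟩, ← mul_assoc ((sI _ : ℤ) : K), sK_mul_self, one_mul]
  have yF : ∀ i < T.l, ∀ r < T.n, T.F y i r := fun i hi r hr =>
    Dat.F_all yA yC hc.h0 hc.h1 hc.h2 hc.h3 hc.h4 hc.h5 yD hi hr
  have yC' := Dat.comm_all yC hc.h0 yF hc.h6
  have yH := Dat.hm_all yA hc.h0 hc.h3 yF (by
    intro r hr hs t₁ t₂ h1 h2
    obtain ⟨k, hk, h'⟩ := Dat.isS_spec hc.h4 hs
    have h3 := (h' k hk).1
    rw [← map_h hA (PresentedGroup.mk (D.curtisTitsRels K)) hr (yx k k r hk hk h3)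
      (yx k k _ hk hk (cT' k hk k hk r hr h3).1)]
    exact mk_eq_one (Or.inr ⟨k, k, r, t₁, t₂, (hA.in2 k hk k hk r hr).mp h3, h1, h2, rfl⟩))
  have lifty : ∀ r t, FreeGroup.lift (fun p : Fin D.nroots × K => y p.1 p.2) (D.stX r t) = y r t := by
    intro r t
    by_cases hr : r < D.nroots
    · simp [ChevalleyDatum.stX, hr]
    · have hr' : ¬ r < T.n := hA.hn ▸ hr
      simp only [ChevalleyDatum.stX, dif_neg hr, map_one, y, Dat.yy_of_le x hr']
      exact (x0 r (fun h => absurd h hr') t).symm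
  let ψ : D.SteinbergGroup K →* D.CurtisTitsGroup K :=
    PresentedGroup.toGroup (f := fun p : Fin D.nroots × K => y p.1 p.2) (by
      rintro g ((⟨r, t, u, hr, rfl⟩ | ⟨r, s, t, u, hr, hs, n1, n2, rfl⟩) | ⟨r, t, u, hr, h1, h2, rfl⟩)
      · simp only [map_mul, map_inv, lifty, mul_inv_eq_one]
        exact yA r t u
      · rw [← hA.hn] at hr hs
        rw [map_comm hA _ hr hs (lifty r) (lifty s) (fun c _ => lifty c.1)]
        exact yC' r s (Dat.okA_iff.mpr ⟨hr, hs, n1, hA.ng r hr ▸ n2⟩) t u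
      · rw [← hA.hn] at hr
        rw [map_h hA _ hr (lifty r) (lifty _)]
        exact yH r hr t u h1 h2)
  have hψ : ∀ r t, ψ (D.stGen K r t) = y r t := fun r t => lifty r t
  -- the Steinberg group
  let z : ℕ → K → D.SteinbergGroup K := D.stGen K
  have zA : ∀ r, AddR z r := by
    intro r t u
    by_cases hr : r < D.nroots
    · have := mk_eq_one (rels := D.steinbergRels K) (Or.inl (Or.inl ⟨r, t, u, hr, rfl⟩))
      simp only [map_mul, map_inv, mul_inv_eq_one] at this
      exact this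
    · simp [z, ChevalleyDatum.stGen, ChevalleyDatum.stX, hr]
  have zC : ∀ r s, T.okA r s = true → T.Comm z r s := by
    intro r s h t u
    obtain ⟨hr, hs, n1, n2⟩ := Dat.okA_iff.mp h
    rw [← map_comm hA (PresentedGroup.mk (D.steinbergRels K)) (X := z) hr hs (fun _ => rfl)
      (fun _ => rfl) (fun _ _ _ => rfl)]
    exact mk_eq_one (Or.inl (Or.inr ⟨r, s, t, u, hA.hn ▸ hr, hA.hn ▸ hs, n1, hA.ng r hr ▸ n2, rfl⟩))
  have liftz : ∀ r t, FreeGroup.lift (fun p : Fin D.nroots × K =>
      if T.any2 p.1 = true then z p.1 p.2 else 1) (D.stX r t) =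
      if T.any2 r = true then z r t else 1 := by
    intro r t
    by_cases hr : r < D.nroots
    · simp [ChevalleyDatum.stX, hr]
    · simp [z, ChevalleyDatum.stGen, ChevalleyDatum.stX, hr]
  have liftz' : ∀ i j r, i < T.l → j < T.l → T.in2 i j r = true → ∀ t,
      FreeGroup.lift (fun p : Fin D.nroots × K =>
      if T.any2 p.1 = true then z p.1 p.2 else 1) (D.stX r t) = z r t := by
    intro i j r hi hj h t
    rw [liftz, if_pos (Dat.any2_of_in2 hi hj h)]
  let φ : D.CurtisTitsGroup K →* D.SteinbergGroup K :=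
    PresentedGroup.toGroup (f := fun p : Fin D.nroots × K =>
      if T.any2 p.1 = true then z p.1 p.2 else 1) (by
      rintro g (((⟨r, t, hr, h, rfl⟩ | ⟨i, j, r, t, u, h, rfl⟩) |
        ⟨i, j, r, s, t, u, h1, h2, n1, n2, rfl⟩) | ⟨i, j, r, t, u, h, h1, h2, rfl⟩)
      · rw [liftz, if_neg]
        intro h'
        obtain ⟨i, hi, h'⟩ := Dat.ex_spec h'
        obtain ⟨j, hj, h'⟩ := Dat.ex_spec h'
        exact h i j ((hA.in2 i hi j hj r (hA.hn ▸ hr)).mp h')
      · obtain ⟨hi, hj, hr, h'⟩ := in2' i j r h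
        simp only [map_mul, map_inv, liftz' i j r hi hj h', mul_inv_eq_one]
        exact zA r t u
      · obtain ⟨hi, hj, hr, h1'⟩ := in2' i j r h1
        obtain ⟨-, -, hs, h2'⟩ := in2' i j s h2
        rw [map_comm hA _ hr hs (liftz' i j r hi hj h1') (liftz' i j s hi hj h2')
          (fun c hc => liftz' i j _ hi hj ((cT' i hi j hj r hr h1').2 s hs h2' c hc).1)]
        exact zC r s (Dat.okA_iff.mpr ⟨hr, hs, n1, hA.ng r hr ▸ n2⟩) t u
      · obtain ⟨hi, hj, hr, h'⟩ := in2' i j r h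
        rw [map_h hA _ hr (liftz' i j r hi hj h') (liftz' i j _ hi hj (cT' i hi j hj r hr h').1),
          ← map_h hA (PresentedGroup.mk (D.steinbergRels K)) (X := z) hr (fun _ => rfl)
            (fun _ => rfl)]
        exact mk_eq_one (Or.inr ⟨r, t, u, hA.hn ▸ hr, h1, h2, rfl⟩))
  have hφ : ∀ r t, φ (x r t) = if T.any2 r = true then z r t else 1 := fun r t => liftz r t
  have hφy : ∀ r < T.n, ∀ t, φ (y r t) = z r t := by
    intro r hr
    induction hm : T.mu r using Nat.strong_induction_on generalizing r with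
    | _ m ih =>
      intro t
      cases h : T.any2 r
      · obtain ⟨k1, k2, -⟩ := Dat.cD_spec hc.h3 hr (notS r h)
        have hN : φ (T.N x (T.jd r)) = T.N z (T.jd r) := by
          simp only [Dat.N, Dat.nn, map_mul, hφ, (spS _ k1).1, (spS _ k1).2, if_true]
        have hF : T.F z (T.jd r) (T.w (T.jd r) r) := Dat.F_of_symA zA zC (by
          simpa [h] using Dat.fa_spec hc.h8 hr)
        simp only [y]
        rw [Dat.yy.eq_1 T x r, if_pos ⟨hr, h, k2⟩, map_mul, map_mul, map_inv, hN,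
          ih _ (hm ▸ k2) _ (b3 _ k1 r hr).1 rfl, hF, (b3 _ k1 r hr).2.1,
          ← mul_assoc ((sI _ : ℤ) : K), sK_mul_self, one_mul]
      · simp only [y]
        rw [Dat.yy_of_any2 x h, hφ, if_pos h]
  have gx : ∀ p : Fin D.nroots × K, (PresentedGroup.of p : D.CurtisTitsGroup K) = x p.1 p.2 := by
    intro p
    simp [x, ChevalleyDatum.stX, PresentedGroup.of]
  have gz : ∀ p : Fin D.nroots × K, (PresentedGroup.of p : D.SteinbergGroup K) = z p.1 p.2 := by
    intro p
    simp [z, ChevalleyDatum.stGen, ChevalleyDatum.stX, PresentedGroup.of]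
  refine ⟨MonoidHom.toMulEquiv φ ψ ?_ ?_, fun i j r t h => ?_⟩
  · apply PresentedGroup.ext
    intro p
    rw [gx, MonoidHom.comp_apply, hφ, MonoidHom.id_apply]
    split_ifs with h
    · rw [hψ]; exact congrFun (Dat.yy_of_any2 x h) _
    · rw [map_one, x0 _ (fun _ => by simpa using h)]
  · apply PresentedGroup.ext
    intro p
    rw [gz, MonoidHom.comp_apply, hψ, MonoidHom.id_apply]
    exact hφy _ (by rw [hA.hn]; exact p.1.2) _
  · obtain ⟨hi, hj, -, h'⟩ := in2' i j r h
    exact liftz' i j r hi hj h' t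

/-! ### Packed tables -/

/-- Reading a packed table. -/
def rd (T b k : ℕ) : ℕ := Nat.mod (Nat.shiftRight T (Nat.mul b k)) (Nat.pow 2 b)

/-- Decoding of coefficients. -/
def dc (c : ℕ) : ℤ := cond (Nat.beq c 0) 1 (cond (Nat.beq c 1) (-1) (cond (Nat.beq c 2) 2 (-2)))

/-- Decoding of a chain entry. -/
def dE (e : ℕ) : List (ℕ × ℤ) :=
  cond (Nat.beq e 0) [] (cond (Nat.blt e 1024)
    [(Nat.pred (Nat.mod e 256), dc (Nat.div e 256))]
    [(Nat.pred (Nat.mod e 256), dc (Nat.mod (Nat.div e 256) 4)),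
      (Nat.pred (Nat.mod (Nat.div e 1024) 256), dc (Nat.div e 262144))])

theorem dE_length (e : ℕ) : (dE e).length ≤ 2 := by
  unfold dE
  cases Nat.beq e 0 <;> cases Nat.blt e 1024 <;> simp

/-- The second term. -/
def snd2 : List (ℕ × ℤ) → List (ℕ × ℤ × ℕ × ℕ)
  | _ :: p :: _ => [(p.1, p.2, 1, 2)]
  | _ => []

/-- Commutator terms from chain entries. -/
def ctOf : List (ℕ × ℤ) → List (ℕ × ℤ) → List (ℕ × ℤ × ℕ × ℕ)
  | [], b => snd2 b
  | [p], b => (p.1, p.2, 1, 1) :: snd2 b
  | p :: q :: _, b => (p.1, p.2, 1, 1) :: (q.1, q.2, 2, 1) :: snd2 b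

theorem commTerms_eq (D : ChevalleyDatum) (r s : ℕ) (h1 : (D.chainEntry r s).length ≤ 2)
    (h2 : (D.chainEntry s r).length ≤ 2) :
    D.commTerms r s = ctOf (D.chainEntry r s) (D.chainEntry s r) := by
  simp only [ChevalleyDatum.commTerms, ChevalleyDatum.chainRoot, ChevalleyDatum.chainM]
  generalize D.chainEntry r s = a at *
  generalize D.chainEntry s r = b at *
  rcases a with _ | ⟨p, _ | ⟨q, _ | ⟨_, _⟩⟩⟩ <;> rcases b with _ | ⟨p', _ | ⟨q', _ | ⟨_, _⟩⟩⟩ <;>
    first | rfl | (simp only [List.length_cons] at h1 h2; omega)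

/-- Packed certificate. -/
structure Pk where
  n : ℕ
  l : ℕ
  sp : ℕ
  ce : List ℕ
  w : ℕ
  sg : ℕ
  mu : ℕ
  jd : ℕ
  zb : ℕ

/-- Chain entries. -/
def Pk.cE (P : Pk) (r s : ℕ) : List (ℕ × ℤ) := dE (rd (P.ce.getD r 0) 20 s)

/-- Vanishing of coroot coordinates. -/
def Pk.z (P : Pk) (r k : ℕ) : Bool := Nat.beq (rd P.zb 1 (Nat.add (Nat.mul r 8) k)) 1

/-- The tables. -/
def Pk.dat (P : Pk) : Dat where
  n := P.n
  l := P.l
  ng r := Nat.sub (Nat.pred P.n) r
  sp i := rd P.sp 8 i
  ct r s := ctOf (P.cE r s) (P.cE s r)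
  w i r := rd P.w 8 (Nat.add (Nat.mul i 256) r)
  sg i r := Nat.beq (rd P.sg 1 (Nat.add (Nat.mul i 256) r)) 1
  mu r := rd P.mu 10 r
  jd r := rd P.jd 3 r
  in2 i j r := Dat.fa P.l fun k => Nat.beq k i || Nat.beq k j || P.z r k

/-- A row of the chain table. -/
def Pk.row (P : Pk) (r : ℕ) : List (ℕ × List (ℕ × ℤ)) :=
  (List.range P.n).filterMap fun s => cond (P.cE r s).isEmpty none (some (s, P.cE r s))

theorem find_row (f : ℕ → List (ℕ × ℤ)) (s : ℕ) (l : List ℕ) :
    (((l.filterMap fun s => cond (f s).isEmpty none (some (s, f s))).find?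
      (fun e => decide (e.1 = s))).map Prod.snd).getD [] = if s ∈ l then f s else [] := by
  induction l with
  | nil => simp
  | cons a l ih =>
    rw [List.filterMap_cons]
    cases h : (f a).isEmpty
    · simp only [cond_false, List.find?_cons]
      by_cases e : a = s
      · simp [e]
      · simp only [e, decide_false, ih, List.mem_cons, Ne.symm e, false_or]
    · simp only [cond_true, ih, List.mem_cons]
      by_cases e : s = a
      · rw [List.isEmpty_iff] at h
        simp [e, h]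
      · simp [e]

theorem agree_of (D : ChevalleyDatum) (P : Pk) (hn : P.n = D.nroots) (hl : P.l = D.rank)
    (h1 : D.negIdx.toList = (List.range P.n).map P.dat.ng)
    (h2 : D.coroot.toList.map (fun a => a.toList.map fun c => decide (c = 0)) =
      (List.range P.n).map fun r => (List.range P.l).map (P.z r))
    (h3 : D.chain.toList.map (fun a => a.toList.map fun e => (e.1, e.2.toList)) =
      (List.range P.n).map P.row) : Agree D P.dat := by
  have getD' : ∀ {α : Type} (a : Array α) (r : ℕ) (d : α), a.getD r d = (a.toList[r]?).getD d := by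
    intro α a r d
    simp [Array.getD_eq_getD_getElem?]
  have hce : ∀ r < P.n, ∀ s < P.n, D.chainEntry r s = P.cE r s := by
    intro r hr s hs
    have h4 := congrArg (fun l => l[r]?) h3
    simp only [List.getElem?_map, List.getElem?_range hr, Option.map_some] at h4
    obtain ⟨a, ha, ha'⟩ := Option.map_eq_some_iff.mp h4
    have h5 := find_row (P.cE r) s (List.range P.n)
    rw [if_pos (List.mem_range.mpr hs), ← Pk.row, ← ha', List.find?_map] at h5
    rw [ChevalleyDatum.chainEntry, getD', ha, ← h5]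
    simp only [Option.getD_some, Function.comp_def]
    cases List.find? (fun e => decide (e.1 = s)) a.toList <;> rfl
  refine ⟨hn, hl, fun r hr => ?_, fun r hr s hs => ?_, fun i hi j hj r hr => ?_⟩
  · rw [ChevalleyDatum.neg, getD', h1, List.getElem?_map, List.getElem?_range (show r < P.n from hr)]
    rfl
  · rw [commTerms_eq D r s (by rw [hce r hr s hs]; exact dE_length _)
      (by rw [hce s hs r hr]; exact dE_length _), hce r hr s hs, hce s hs r hr]
    rfl
  · replace hr : r < P.n := hr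
    have h4 := congrArg (fun l => l[r]?) h2
    simp only [List.getElem?_map, List.getElem?_range hr, Option.map_some] at h4
    obtain ⟨a, ha, ha'⟩ := Option.map_eq_some_iff.mp h4
    have hz : ∀ k < P.l, (P.z r k = true ↔ (D.coroot.getD r #[]).getD k 0 = 0) := by
      intro k hk
      have h5 := congrArg (fun l => l[k]?) ha'
      simp only [List.getElem?_map, List.getElem?_range hk, Option.map_some] at h5
      obtain ⟨c, hc, hc'⟩ := Option.map_eq_some_iff.mp h5
      rw [getD' _ r, ha, Option.getD_some, getD', hc, ← hc']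
      simp
    unfold ChevalleyDatum.InRankTwoSub
    rw [← hn, ← hl]
    simp only [Pk.dat, Dat.fa, List.all_eq_true, List.mem_range, Bool.or_eq_true, Nat.beq_eq]
    constructor
    · intro h
      refine ⟨hr, hi, hj, fun k hk h1 h2 => (hz k hk).mp ?_⟩
      rcases h k hk with (h | h) | h
      · exact absurd h h1
      · exact absurd h h2
      · exact h
    · intro h k hk
      by_cases h1 : k = i
      · exact Or.inl (Or.inl h1)
      by_cases h2 : k = j
      · exact Or.inl (Or.inr h2)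
      exact Or.inr ((hz k hk).mpr (h.2.2.2 k hk h1 h2))

end Cfsg.Agent.H2.CT
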