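import Cfsg.Agent.H2.E8Rel

/-!
The adjoint group of type `E₈` over `𝔽₂`: root subgroups, monomial elements, Bruhat decomposition.
-/

set_option autoImplicit false

namespace Cfsg.Agent.H2.E8

/-- Root elements as automorphisms. -/
def Xe (r : Φ) : V ≃ₗ[ℤ] V :=
  (AddEquiv.mk ⟨Xf r, Xf r, Xf_invol r, Xf_invol r⟩ (Xf_add r)).toIntLinearEquiv

/-- The group. -/
def GG : Subgroup (V ≃ₗ[ℤ] V) := Subgroup.closure (Set.range Xe)

/-- The group, as a type. -/
abbrev G : Type := GG

instance finite_G : Finite G := by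
  haveI : Finite (V ≃ₗ[ℤ] V) := DFunLike.finite _
  infer_instance

/-- Root elements. -/
def x (r : Φ) : G := ⟨Xe r, Subgroup.subset_closure ⟨r, rfl⟩⟩

theorem x_smul (r : Φ) (w : V) : x r • w = Xf r w := rfl

theorem G_ext {g g' : G} (h : ∀ w : V, g • w = g' • w) : g = g' :=
  Subtype.ext (LinearEquiv.ext h)

theorem x_mul_self (r : Φ) : x r * x r = 1 :=
  G_ext fun w => by rw [mul_smul, x_smul, x_smul, Xf_invol, one_smul]

theorem x_inv (r : Φ) : (x r)⁻¹ = x r := inv_eq_of_mul_eq_one_right (x_mul_self r)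

theorem x_comm {a b : Φ} (h : 0 ≤ B a.1 b.1) : x a * x b = x b * x a := by
  by_cases e : B a.1 b.1 = 2
  · rw [eq_of_B_two e]
  · have := B_le_two a b
    exact G_ext fun w => by
      simp only [mul_smul, x_smul]
      exact Xf_comm a b (by omega) w

theorem x_rel {a b : Φ} (h : B a.1 b.1 = -1) : x a * x b = x b * x a * x (ad a b h) :=
  G_ext fun w => by
    simp only [mul_smul, x_smul]
    exact Xf_rel a b h w

theorem x_conj_rel {a b : Φ} (h : B a.1 b.1 = -1) : x a * x b * (x a)⁻¹ = x b * x (ad a b h) := by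
  have h2 : x a * x (ad a b h) = x (ad a b h) * x a := x_comm (by simp [a.2, h])
  rw [x_rel h, mul_assoc (x b), h2]
  group

theorem eq_top_of {H : Subgroup G} (h : ∀ r, x r ∈ H) : H = ⊤ := by
  rw [eq_top_iff]
  rintro ⟨g, hg⟩ -
  induction hg using Subgroup.closure_induction with
  | mem g hg => obtain ⟨r, rfl⟩ := hg; exact h r
  | one => exact H.one_mem
  | mul a b ha hb iha ihb => exact H.mul_mem iha ihb
  | inv a ha iha => exact H.inv_mem iha

/-- Isometries of the lattice. -/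
def W : Subgroup (L ≃ₗ[ℤ] L) where
  carrier := {e | ∀ u v, B (e u) (e v) = B u v}
  mul_mem' := fun {a b} ha hb u v => by
    rw [LinearEquiv.mul_apply, LinearEquiv.mul_apply, ha, hb]
  one_mem' := fun _ _ => rfl
  inv_mem' := fun {a} ha u v => by
    rw [← ha]
    simp

theorem W_iso (e : W) (u v : L) : B (e • u) (e • v) = B u v := e.2 u v

instance : MulAction W Φ where
  smul e r := ⟨e • r.1, by rw [W_iso, r.2]⟩
  one_smul r := Subtype.ext (one_smul W r.1)
  mul_smul a b r := Subtype.ext (mul_smul a b r.1)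

@[simp] theorem smul_val (e : W) (r : Φ) : (e • r).1 = e • r.1 := rfl

theorem W_smul_zsmul (e : W) (c : ℤ) (v : L) : e • (c • v) = c • e • v := map_zsmul e.1 c v

theorem smul_ng (e : W) (r : Φ) : e • ng r = ng (e • r) := Subtype.ext (by simp)

theorem ng_ng (r : Φ) : ng (ng r) = r := Subtype.ext (by simp)

/-- Reflections as isometries. -/
def sw (a : Φ) : W := ⟨(sr a).toIntLinearEquiv, sr_iso a⟩

theorem sw_smul (a : Φ) (v : L) : sw a • v = sr a v := rfl

theorem sw_inv (a : Φ) : (sw a)⁻¹ = sw a := rfl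

theorem ex_smul (f : Φ → ZMod 2) (e : W) (v : L) :
    ex (fun s => f (e • s)) v = ex f (e • v) := by
  by_cases h : B v v = 2
  · have h1 := ex_root (fun s => f (e • s)) ⟨v, h⟩
    have h2 := ex_root f (e • ⟨v, h⟩)
    simp only [smul_val] at h1 h2
    rw [h1, h2]
  · rw [ex_zero _ h, ex_zero _ (by rwa [W_iso])]

/-- Monomial elements. -/
def IsN (n : G) (e : W) : Prop :=
  ∀ (v : L) (f : Φ → ZMod 2), n • ((red v, f) : V) = (red (e • v), fun s => f (e⁻¹ • s))

theorem IsN.one : IsN 1 1 := fun v f => by simp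

theorem IsN.mul {n m : G} {e e' : W} (h : IsN n e) (h' : IsN m e') : IsN (n * m) (e * e') :=
  fun v f => by
    rw [mul_smul, h', h]
    simp [mul_smul]

theorem IsN.inv {n : G} {e : W} (h : IsN n e) : IsN n⁻¹ e⁻¹ := fun v f => by
  rw [inv_smul_eq_iff, h]
  simp

theorem IsN.eq_one {n : G} (h : IsN n 1) : n = 1 := G_ext fun w => by
  obtain ⟨v, hv⟩ := red_surj w.1
  have : w = (red v, w.2) := by rw [hv]
  rw [this, h]
  simp

theorem red_zsmul (c : ℤ) (v : L) : red (c • v) = (c : ZMod 2) • red v := by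
  funext i; simp [red]

theorem IsN.conj {n : G} {e : W} (h : IsN n e) (r : Φ) : n * x r * n⁻¹ = x (e • r) := by
  rw [mul_inv_eq_iff_eq_mul]
  refine G_ext fun w => ?_
  obtain ⟨v, hv⟩ := red_surj w.1
  obtain ⟨f, rfl⟩ : ∃ f, w = (red v, f) := ⟨w.2, by rw [hv]⟩
  obtain ⟨c, hc⟩ := ZMod.intCast_surjective (ex f (-r.1))
  have e1 : Xf r (red v, f) = (red (v + c • r.1), (Xf r (red v, f)).2) := by
    rw [red_add, red_zsmul, hc]; rfl
  rw [mul_smul, mul_smul, x_smul, e1, h, h, x_smul]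
  refine Prod.ext ?_ (funext fun s => ?_)
  · simp only [Xf, ex_smul, smul_add, W_smul_zsmul, red_add, red_zsmul, hc, smul_val, smul_neg,
      inv_smul_smul]
  · simp only [Xf, ex_smul, smul_val, smul_neg, smul_sub, inv_smul_smul, Bb_red, W_iso,
      inv_smul_eq_iff]

/-- The monomial element of a root. -/
def nn (a : Φ) : G := x a * x (ng a) * x a

theorem isN_nn (a : Φ) : IsN (nn a) (sw a) := fun v f => by
  simp only [nn, mul_smul, x_smul, Xf_n]
  refine Prod.ext ?_ (funext fun s => ?_)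
  · simp only [sw_smul, sr_apply, sub_eq_add_neg, red_add, red_neg, red_zsmul, Bb_red]
  · have := ex_root f ((sw a)⁻¹ • s)
    simp only [sw_inv, smul_val, sw_smul] at this ⊢
    exact this

theorem nn_mul_self (a : Φ) : nn a * nn a = 1 := by
  have h1 := x_mul_self a
  have h2 := x_mul_self (ng a)
  calc nn a * nn a = x a * (x (ng a) * (x a * x a) * x (ng a)) * x a := by unfold nn; group
    _ = 1 := by rw [h1, mul_one, h2, mul_one, h1]

theorem nn_inv (a : Φ) : (nn a)⁻¹ = nn a := inv_eq_of_mul_eq_one_right (nn_mul_self a)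

/-- No component along the root `r` is produced from the Cartan part. -/
def Z (g : G) (r : Φ) : Prop := ∀ h : Fin 8 → ZMod 2, (g • ((h, 0) : V)).2 r = 0

theorem IsN.snd {n : G} {e : W} (h : IsN n e) (w : V) (s : Φ) : (n • w).2 s = w.2 (e⁻¹ • s) := by
  obtain ⟨v, hv⟩ := red_surj w.1
  obtain ⟨f, rfl⟩ : ∃ f, w = (red v, f) := ⟨w.2, by rw [hv]⟩
  rw [h]

theorem IsN.Z_mul {n : G} {e : W} (h : IsN n e) {g : G} {r : Φ} (hz : Z (g * n) r) : Z g r := by
  intro k
  obtain ⟨v, rfl⟩ := red_surj k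
  have := hz (red (e⁻¹ • v))
  rw [mul_smul, h, smul_inv_smul] at this
  exact this

theorem IsN.Z_conj {n : G} {e : W} (h : IsN n e) {g : G} {r : Φ}
    (hz : Z (n * g * n⁻¹) (e • r)) : Z g r := by
  have h1 := h.inv.Z_mul hz
  intro k
  have := h1 k
  rwa [mul_smul, h.snd, inv_smul_smul] at this

theorem exists_Bb (r : Φ) : ∃ h, Bb h r.1 = 1 := by
  obtain ⟨v, hv⟩ := exists_odd r
  exact ⟨red v, by rw [Bb_red]; exact (ZMod.intCast_eq_one_iff_odd).mpr hv⟩

theorem Xf_snd (r : Φ) (w : V) (s : Φ) : (Xf r w).2 s =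
    w.2 s + (if s.1 = r.1 then Bb w.1 r.1 + ex w.2 (-r.1) else 0) + ex w.2 (s.1 - r.1) := rfl

theorem ex_zero_fun (v : L) : ex 0 v = 0 := by unfold ex; split_ifs <;> rfl

theorem not_Z_x (r : Φ) : ¬ Z (x r) r := fun h => by
  obtain ⟨k, hk⟩ := exists_Bb r
  have := h k
  rw [x_smul, Xf_snd] at this
  simp [ex_zero_fun, hk] at this

/-- Subgroups generated by root elements. -/
def RR (S : Φ → Prop) : Subgroup G := Subgroup.closure {g | ∃ r, S r ∧ g = x r}

theorem x_mem {S : Φ → Prop} {r : Φ} (h : S r) : x r ∈ RR S := Subgroup.subset_closure ⟨r, h, rfl⟩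

theorem RR_le {S : Φ → Prop} {H : Subgroup G} (h : ∀ r, S r → x r ∈ H) : RR S ≤ H := by
  rw [RR, Subgroup.closure_le]
  rintro _ ⟨r, hr, rfl⟩
  exact h r hr

theorem RR_mono {S T : Φ → Prop} (h : ∀ r, S r → T r) : RR S ≤ RR T :=
  RR_le fun r hr => x_mem (h r hr)

theorem RR_ind {S : Φ → Prop} {p : G → Prop} (h1 : p 1) (h2 : ∀ r g, S r → p g → p (x r * g))
    {g : G} (hg : g ∈ RR S) : p g := by
  induction hg using Subgroup.closure_induction_left with
  | one => exact h1
  | mul_left a ha g _ ih => obtain ⟨r, hr, rfl⟩ := ha; exact h2 r g hr ih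
  | inv_mul_cancel a ha g _ ih => obtain ⟨r, hr, rfl⟩ := ha; rw [x_inv]; exact h2 r g hr ih

theorem conj_RR {S : Φ → Prop} {H : Subgroup G} {p : G} (h : ∀ r, S r → p * x r * p⁻¹ ∈ H)
    {g : G} (hg : g ∈ RR S) : p * g * p⁻¹ ∈ H := by
  refine RR_ind (p := fun g => p * g * p⁻¹ ∈ H) (by simp) (fun r g hr ih => ?_) hg
  have : p * (x r * g) * p⁻¹ = (p * x r * p⁻¹) * (p * g * p⁻¹) := by group
  rw [this]
  exact H.mul_mem (h r hr) ih

theorem x_conj_RR {S : Φ → Prop} {a : Φ}
    (h : ∀ r, S r → B a.1 r.1 ≠ -2 ∧ ∀ e : B a.1 r.1 = -1, S (ad a r e))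
    {g : G} (hg : g ∈ RR S) : x a * g * (x a)⁻¹ ∈ RR S := by
  refine conj_RR (fun r hr => ?_) hg
  by_cases e : B a.1 r.1 = -1
  · rw [x_conj_rel e]
    exact (RR S).mul_mem (x_mem hr) (x_mem ((h r hr).2 e))
  · have := neg_two_le_B a r
    have := (h r hr).1
    rw [x_comm (by omega), mul_inv_cancel_right]
    exact x_mem hr

theorem split {S : Φ → Prop} {a : Φ}
    (h : ∀ r, S r → B a.1 r.1 ≠ -2 ∧ ∀ e : B a.1 r.1 = -1, S (ad a r e))
    {g : G} (hg : g ∈ RR S) :
    g ∈ RR (fun r => S r ∧ r ≠ a) ∨ x a * g ∈ RR (fun r => S r ∧ r ≠ a) := by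
  have key : ∀ g ∈ RR (fun r => S r ∧ r ≠ a), x a * g * (x a)⁻¹ ∈ RR (fun r => S r ∧ r ≠ a) :=
    fun g hg => x_conj_RR (fun r hr => ⟨(h r hr.1).1, fun e => ⟨(h r hr.1).2 e, fun e2 =>
      root_ne_zero r (by simpa using congrArg Subtype.val e2)⟩⟩) hg
  refine RR_ind (p := fun g => g ∈ RR (fun r => S r ∧ r ≠ a) ∨ x a * g ∈ RR (fun r => S r ∧ r ≠ a))
    (Or.inl (Subgroup.one_mem _)) (fun r g hr ih => ?_) hg
  by_cases e : r = a
  · subst e
    rw [← mul_assoc, x_mul_self, one_mul]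
    exact ih.symm
  · rcases ih with ih | ih
    · exact Or.inl (Subgroup.mul_mem _ (x_mem ⟨hr, e⟩) ih)
    · right
      have : x a * (x r * g) = (x a * x r * (x a)⁻¹) * (x a * g) := by group
      rw [this]
      exact Subgroup.mul_mem _ (key _ (x_mem ⟨hr, e⟩)) ih

theorem ex_eq_zero {f : Φ → ZMod 2} {v : L} (h : ∀ hv : B v v = 2, f ⟨v, hv⟩ = 0) : ex f v = 0 := by
  unfold ex
  split_ifs with hv
  · exact h hv
  · rfl

theorem vanish {S T : Φ → Prop}
    (h : ∀ r s, S r → T s → s ≠ r ∧ ∀ e : B (s.1 - r.1) (s.1 - r.1) = 2, T ⟨_, e⟩)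
    {g : G} (hg : g ∈ RR S) {w : V} (hw : ∀ s, T s → w.2 s = 0) : ∀ s, T s → (g • w).2 s = 0 := by
  refine RR_ind (p := fun g => ∀ s, T s → (g • w).2 s = 0) (by simpa using hw)
    (fun r g hr ih s hs => ?_) hg
  rw [mul_smul, x_smul, Xf_snd, ih s hs, if_neg (fun e => (h r s hr hs).1 (Subtype.ext e)),
    ex_eq_zero fun e => ih _ ((h r s hr hs).2 e)]
  simp

theorem vanish_fst {S T : Φ → Prop}
    (h : ∀ r s, S r → T s → s ≠ r ∧ ∀ e : B (s.1 - r.1) (s.1 - r.1) = 2, T ⟨_, e⟩)
    (h2 : ∀ r, S r → T (ng r))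
    {g : G} (hg : g ∈ RR S) {w : V} (hw : ∀ s, T s → w.2 s = 0) : (g • w).1 = w.1 := by
  suffices g ∈ RR S ∧ (g • w).1 = w.1 from this.2
  refine RR_ind (p := fun g => g ∈ RR S ∧ (g • w).1 = w.1) ⟨Subgroup.one_mem _, by simp⟩
    (fun r g hr ih => ⟨Subgroup.mul_mem _ (x_mem hr) ih.1, ?_⟩) hg
  have := ex_root (g • w).2 (ng r)
  rw [ng_val, vanish h ih.1 hw _ (h2 r hr)] at this
  rw [mul_smul, x_smul, Xf_fst, this, zero_smul, add_zero, ih.2]

/-- Subgroups of roots of level at least `m`. -/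
def R (μ : L →+ ℤ) (m : ℤ) : Subgroup G := RR fun r => m ≤ μ r.1

theorem Z_of_mem {μ : L →+ ℤ} {m : ℤ} (hm : 0 ≤ m) {g : G} (hg : g ∈ R μ m) {r : Φ}
    (hr : μ r.1 < m) : Z g r := fun k =>
  vanish (T := fun s => μ s.1 < m) (fun r s hr hs => ⟨fun e => by subst e; omega, fun _ => by
    simp only [map_sub]; omega⟩) hg (fun _ _ => rfl) r hr

theorem remove {μ : L →+ ℤ} {m : ℤ} (hm : 1 ≤ m) {g : G} (hg : g ∈ R μ m)
    (hz : ∀ r : Φ, μ r.1 = m → Z g r) : g ∈ R μ (m + 1) := by
  classical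
  have key : ∀ T : Finset Φ, (∀ r ∈ T, μ r.1 = m) → g ∈ RR (fun r => m + 1 ≤ μ r.1 ∨ r ∈ T) →
      g ∈ R μ (m + 1) := by
    intro T
    induction T using Finset.induction_on with
    | empty => intro _ h; simpa [R] using h
    | insert a T haT ih =>
      intro hT h
      have ha := hT a (Finset.mem_insert_self _ _)
      have hl : ∀ r : Φ, (m + 1 ≤ μ r.1 ∨ r ∈ insert a T) → m ≤ μ r.1 := fun r hr => by
        rcases hr with hr | hr
        · omega
        · exact (hT r hr).ge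
      have hs := split (a := a) (fun r hr => ⟨fun e => by
        have h1 := eq_neg_of_B a.2 r e
        have h2 := hl r hr
        rw [h1, map_neg] at ha
        omega, fun e => Or.inl (by
        have h2 := hl r hr
        simp only [ad_val, map_add]
        omega)⟩) h
      refine ih (fun r hr => hT r (Finset.mem_insert_of_mem hr)) ?_
      rcases hs with hs | hs
      · refine RR_mono (fun r hr => ?_) hs
        rcases hr with ⟨hr | hr, hne⟩
        · exact Or.inl hr
        · exact Or.inr ((Finset.mem_insert.mp hr).resolve_left hne)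
      · exfalso
        obtain ⟨k, hk⟩ := exists_Bb a
        have hv : ∀ r s : Φ, ((m + 1 ≤ μ r.1 ∨ r ∈ insert a T) ∧ r ≠ a) → (μ s.1 < m ∨ s = a) →
            s ≠ r ∧ ∀ e : B (s.1 - r.1) (s.1 - r.1) = 2,
              (μ (⟨_, e⟩ : Φ).1 < m ∨ (⟨_, e⟩ : Φ) = a) := by
          intro r s hr hs
          have h2 := hl r hr.1
          refine ⟨fun e => ?_, fun _ => Or.inl ?_⟩
          · subst e
            rcases hs with hs | hs
            · omega
            · exact hr.2 hs
          · simp only [map_sub]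
            rcases hs with hs | hs
            · omega
            · rw [hs]; omega
        have v1 := vanish hv hs (w := (k, 0)) (fun _ _ => rfl)
        have v2 := vanish_fst hv (fun r hr => Or.inl (by
          have h2 := hl r hr.1
          simp only [ng_val, map_neg]
          omega)) hs (w := (k, 0)) (fun _ _ => rfl)
        have h3 := hz a ha k
        have h4 : g = x a * (x a * g) := by rw [← mul_assoc, x_mul_self, one_mul]
        have h5 := ex_root ((x a * g) • ((k, 0) : V)).2 (ng a)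
        rw [ng_val, v1 _ (Or.inl (by simp only [ng_val, map_neg]; omega))] at h5
        rw [h4, mul_smul, x_smul, Xf_snd, v1 a (Or.inr rfl), v2, h5, if_pos rfl, sub_self,
          ex_zero _ (by simp), hk] at h3
        simp at h3
  haveI := Fintype.ofFinite Φ
  refine key (Finset.univ.filter fun r => μ r.1 = m) (fun r hr => (Finset.mem_filter.mp hr).2)
    (RR_mono (fun r hr => ?_) hg)
  simp only [Finset.mem_filter, Finset.mem_univ, true_and]
  omega

end Cfsg.Agent.H2.E8
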