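import Mathlib

/-!
The root lattice of type `E₈` and the root elements of the adjoint group over `𝔽₂`.
-/

set_option autoImplicit false

namespace Cfsg.Agent.H2.E8

/-- The lattice. -/
abbrev L := Fin 8 → ℤ

/-- The bilinear form. -/
def B (u v : L) : ℤ :=
  2 * (u 0 * v 0 + u 1 * v 1 + u 2 * v 2 + u 3 * v 3 + u 4 * v 4 + u 5 * v 5 + u 6 * v 6 + u 7 * v 7)
    - (u 0 * v 2 + u 2 * v 0) - (u 1 * v 3 + u 3 * v 1) - (u 2 * v 3 + u 3 * v 2)
    - (u 3 * v 4 + u 4 * v 3) - (u 4 * v 5 + u 5 * v 4) - (u 5 * v 6 + u 6 * v 5)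
    - (u 6 * v 7 + u 7 * v 6)

theorem B_comm (u v : L) : B u v = B v u := by unfold B; ring

@[simp] theorem B_add_left (u v w : L) : B (u + v) w = B u w + B v w := by
  simp only [B, Pi.add_apply]; ring

@[simp] theorem B_add_right (u v w : L) : B w (u + v) = B w u + B w v := by
  simp only [B, Pi.add_apply]; ring

@[simp] theorem B_sub_left (u v w : L) : B (u - v) w = B u w - B v w := by
  simp only [B, Pi.sub_apply]; ring

@[simp] theorem B_sub_right (u v w : L) : B w (u - v) = B w u - B w v := by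
  simp only [B, Pi.sub_apply]; ring

@[simp] theorem B_neg_left (u w : L) : B (-u) w = -B u w := by
  simp only [B, Pi.neg_apply]; ring

@[simp] theorem B_neg_right (u w : L) : B w (-u) = -B w u := by
  simp only [B, Pi.neg_apply]; ring

@[simp] theorem B_smul_left (c : ℤ) (u w : L) : B (c • u) w = c * B u w := by
  simp only [B, Pi.smul_apply, smul_eq_mul]; ring

@[simp] theorem B_smul_right (c : ℤ) (u w : L) : B w (c • u) = c * B w u := by
  simp only [B, Pi.smul_apply, smul_eq_mul]; ring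

@[simp] theorem B_zero_left (w : L) : B 0 w = 0 := by simp [B]

theorem B_sos (v : L) : 60 * B v v = 2 * (v 3) ^ 2 + 30 * (2 * v 1 - v 3) ^ 2 +
    30 * (2 * v 0 - v 2) ^ 2 + 10 * (3 * v 2 - 2 * v 3) ^ 2 + 30 * (2 * v 7 - v 6) ^ 2 +
    10 * (3 * v 6 - 2 * v 5) ^ 2 + 5 * (4 * v 5 - 3 * v 4) ^ 2 + 3 * (5 * v 4 - 4 * v 3) ^ 2 := by
  unfold B; ring

theorem B_nonneg (v : L) : 0 ≤ B v v := by
  have := B_sos v
  have : 0 ≤ 60 * B v v := by rw [this]; positivity
  omega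

theorem sq_bound {a c d : ℤ} (hc : 0 < c) (h : c * a ^ 2 ≤ d) (k : ℤ) (hk : 0 ≤ k)
    (hd : d < c * (k + 1) ^ 2) : -k ≤ a ∧ a ≤ k := by
  have key : ¬ (k + 1) ^ 2 ≤ a ^ 2 := fun e => by
    have := mul_le_mul_of_nonneg_left e hc.le
    omega
  constructor <;> by_contra hn <;> push Not at hn <;> apply key <;> nlinarith

theorem B_bounds {v : L} {d : ℤ} (h : B v v ≤ d) : 2 * (v 3) ^ 2 + 30 * (2 * v 1 - v 3) ^ 2 ≤ 60 * d ∧
    30 * (2 * v 0 - v 2) ^ 2 ≤ 60 * d ∧ 10 * (3 * v 2 - 2 * v 3) ^ 2 ≤ 60 * d ∧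
    30 * (2 * v 7 - v 6) ^ 2 ≤ 60 * d ∧ 10 * (3 * v 6 - 2 * v 5) ^ 2 ≤ 60 * d ∧
    5 * (4 * v 5 - 3 * v 4) ^ 2 ≤ 60 * d ∧ 3 * (5 * v 4 - 4 * v 3) ^ 2 ≤ 60 * d := by
  have := B_sos v
  have h1 := sq_nonneg (v 3)
  have h2 := sq_nonneg (2 * v 1 - v 3)
  have h3 := sq_nonneg (2 * v 0 - v 2)
  have h4 := sq_nonneg (3 * v 2 - 2 * v 3)
  have h5 := sq_nonneg (2 * v 7 - v 6)
  have h6 := sq_nonneg (3 * v 6 - 2 * v 5)
  have h7 := sq_nonneg (4 * v 5 - 3 * v 4)
  have h8 := sq_nonneg (5 * v 4 - 4 * v 3)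
  refine ⟨?_, ?_, ?_, ?_, ?_, ?_, ?_⟩ <;> linarith

theorem eq_zero_of_B {v : L} (h : B v v ≤ 0) : v = 0 := by
  obtain ⟨h1, h2, h3, h4, h5, h6, h7⟩ := B_bounds h
  have e0 := sq_bound (a := v 3) (c := 2) (d := 0) (by norm_num)
    (by nlinarith [sq_nonneg (2 * v 1 - v 3)]) 0 le_rfl (by norm_num)
  have e1 := sq_bound (a := 2 * v 1 - v 3) (c := 30) (d := 0) (by norm_num)
    (by nlinarith [sq_nonneg (v 3)]) 0 le_rfl (by norm_num)
  have e2 := sq_bound (by norm_num) h2 0 le_rfl (by norm_num)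
  have e3 := sq_bound (by norm_num) h3 0 le_rfl (by norm_num)
  have e4 := sq_bound (by norm_num) h4 0 le_rfl (by norm_num)
  have e5 := sq_bound (by norm_num) h5 0 le_rfl (by norm_num)
  have e6 := sq_bound (by norm_num) h6 0 le_rfl (by norm_num)
  have e7 := sq_bound (by norm_num) h7 0 le_rfl (by norm_num)
  funext i
  fin_cases i <;> simp <;> omega

theorem two_le_B {v : L} (h : v ≠ 0) : 2 ≤ B v v := by
  have h1 : 0 < B v v := lt_of_not_ge fun e => h (eq_zero_of_B e)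
  have h2 : B v v = 2 * (v 0 * v 0 + v 1 * v 1 + v 2 * v 2 + v 3 * v 3 + v 4 * v 4 + v 5 * v 5 +
      v 6 * v 6 + v 7 * v 7 - v 0 * v 2 - v 1 * v 3 - v 2 * v 3 - v 3 * v 4 - v 4 * v 5 - v 5 * v 6 -
      v 6 * v 7) := by unfold B; ring
  omega

/-- Roots. -/
abbrev Φ := {v : L // B v v = 2}

theorem root_bounds (r : Φ) : (-6 ≤ r.1 3 ∧ r.1 3 ≤ 6) ∧ ∀ i, -7 ≤ r.1 i ∧ r.1 i ≤ 7 := by
  obtain ⟨h1, h2, h3, h4, h5, h6, h7⟩ := B_bounds r.2.le
  have e0 := sq_bound (a := r.1 3) (c := 2) (d := 120) (by norm_num)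
    (by nlinarith [sq_nonneg (2 * r.1 1 - r.1 3)]) 7 (by norm_num) (by norm_num)
  have e1 := sq_bound (a := 2 * r.1 1 - r.1 3) (c := 30) (d := 120) (by norm_num)
    (by nlinarith [sq_nonneg (r.1 3)]) 2 (by norm_num) (by norm_num)
  have e2 := sq_bound (by norm_num) h2 2 (by norm_num) (by norm_num)
  have e3 := sq_bound (by norm_num) h3 3 (by norm_num) (by norm_num)
  have e4 := sq_bound (by norm_num) h4 2 (by norm_num) (by norm_num)
  have e5 := sq_bound (by norm_num) h5 3 (by norm_num) (by norm_num)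
  have e6 := sq_bound (by norm_num) h6 4 (by norm_num) (by norm_num)
  have e7 := sq_bound (by norm_num) h7 6 (by norm_num) (by norm_num)
  refine ⟨?_, fun i => by fin_cases i <;> simp <;> omega⟩
  have key : r.1 3 ≠ 7 ∧ r.1 3 ≠ -7 := by
    constructor <;> intro e <;> rw [e] at h1 e1
    · have : 2 * r.1 1 - 7 ≤ -1 ∨ 1 ≤ 2 * r.1 1 - 7 := by omega
      rcases this with h | h <;> nlinarith
    · have : 2 * r.1 1 - -7 ≤ -1 ∨ 1 ≤ 2 * r.1 1 - -7 := by omega
      rcases this with h | h <;> nlinarith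
  omega

instance finite_roots : Finite Φ := by
  refine Finite.of_injective
    (fun r : Φ => (fun i => ⟨r.1 i, Set.mem_Icc.mpr ((root_bounds r).2 i)⟩ :
      Fin 8 → Set.Icc (-7 : ℤ) 7)) ?_
  intro r s h
  apply Subtype.ext
  funext i
  exact congrArg Subtype.val (congrFun h i)

theorem B_le_two (r s : Φ) : B r.1 s.1 ≤ 2 := by
  have := B_nonneg (r.1 - s.1)
  simp only [B_sub_left, B_sub_right, r.2, s.2, B_comm s.1 r.1] at this
  omega

theorem neg_two_le_B (r s : Φ) : -2 ≤ B r.1 s.1 := by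
  have := B_nonneg (r.1 + s.1)
  simp only [B_add_left, B_add_right, r.2, s.2, B_comm s.1 r.1] at this
  omega

theorem eq_of_B_two {r s : Φ} (h : B r.1 s.1 = 2) : r = s := by
  apply Subtype.ext
  rw [← sub_eq_zero]
  apply eq_zero_of_B
  simp only [B_sub_left, B_sub_right, r.2, s.2, B_comm s.1 r.1, h]
  norm_num

/-- The negative of a root. -/
def ng (r : Φ) : Φ := ⟨-r.1, by simp [r.2]⟩

@[simp] theorem ng_val (r : Φ) : (ng r).1 = -r.1 := rfl

/-- Fundamental roots as vectors. -/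
def al (i : Fin 8) : L := Pi.single i 1

theorem B_al (v : L) : B v (al 0) = 2 * v 0 - v 2 ∧ B v (al 1) = 2 * v 1 - v 3 ∧
    B v (al 2) = 2 * v 2 - v 0 - v 3 ∧ B v (al 3) = 2 * v 3 - v 1 - v 2 - v 4 ∧
    B v (al 4) = 2 * v 4 - v 3 - v 5 ∧ B v (al 5) = 2 * v 5 - v 4 - v 6 ∧
    B v (al 6) = 2 * v 6 - v 5 - v 7 ∧ B v (al 7) = 2 * v 7 - v 6 := by
  refine ⟨?_, ?_, ?_, ?_, ?_, ?_, ?_, ?_⟩ <;> simp [B, al] <;> ring

theorem B_eq_sum (u v : L) : B u v = ∑ i, u i * B v (al i) := by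
  obtain ⟨h0, h1, h2, h3, h4, h5, h6, h7⟩ := B_al v
  rw [Fin.sum_univ_eight, h0, h1, h2, h3, h4, h5, h6, h7]
  unfold B; ring

/-- Fundamental roots. -/
def sp (i : Fin 8) : Φ := ⟨al i, by fin_cases i <;> simp [B, al]⟩

@[simp] theorem sp_val (i : Fin 8) : (sp i).1 = al i := rfl

/-- Positive vectors. -/
def Pos (v : L) : Prop := ∀ i, 0 ≤ v i

theorem pos_or_neg (r : Φ) : Pos r.1 ∨ Pos (-r.1) := by
  by_contra hn
  push Not at hn
  let u : L := fun i => max (r.1 i) 0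
  let v : L := fun i => max (-r.1 i) 0
  have e : r.1 = u - v := by funext i; simp only [u, v, Pi.sub_apply]; omega
  have hu : ∀ i, 0 ≤ u i := fun i => le_max_right _ _
  have hv : ∀ i, 0 ≤ v i := fun i => le_max_right _ _
  have huv : ∀ i, u i * v i = 0 := fun i => by
    simp only [u, v]
    rcases le_total (r.1 i) 0 with h | h
    · rw [max_eq_right h, zero_mul]
    · rw [max_eq_right (neg_nonpos.mpr h), mul_zero]
  have h1 : u ≠ 0 := fun h => hn.2 (fun i => by
    have := congrFun h i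
    simp only [u, Pi.zero_apply, Pi.neg_apply] at this ⊢
    omega)
  have h2 : v ≠ 0 := fun h => hn.1 (fun i => by
    have := congrFun h i
    simp only [v, Pi.zero_apply] at this ⊢
    omega)
  have h3 : B u v ≤ 0 := by
    unfold B
    simp only [huv]
    have m := fun i j => mul_nonneg (hu i) (hv j)
    linarith [m 0 2, m 2 0, m 1 3, m 3 1, m 2 3, m 3 2, m 3 4, m 4 3, m 4 5, m 5 4, m 5 6, m 6 5,
      m 6 7, m 7 6]
  have h4 := r.2
  rw [e] at h4
  simp only [B_sub_left, B_sub_right, B_comm v u] at h4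
  have := two_le_B h1
  have := two_le_B h2
  omega

/-- Height. -/
def ht (v : L) : ℤ := ∑ i, v i

theorem ht_bounds (r : Φ) : -56 ≤ ht r.1 ∧ ht r.1 ≤ 56 := by
  have h := (root_bounds r).2
  have := h 0; have := h 1; have := h 2; have := h 3; have := h 4; have := h 5; have := h 6
  have := h 7
  rw [ht, Fin.sum_univ_eight]
  omega

theorem root_ne_zero (r : Φ) : r.1 ≠ 0 := fun e => by
  have := r.2
  rw [e] at this
  simp at this

theorem pos_iff (r : Φ) : Pos r.1 ↔ 1 ≤ ht r.1 := by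
  have key : ∀ v : L, v ≠ 0 → Pos v → 1 ≤ ht v := by
    intro v hv h
    have h1 : 0 ≤ ht v := Finset.sum_nonneg fun i _ => h i
    rcases h1.eq_or_lt with e | e
    · exfalso
      apply hv
      funext i
      exact (Finset.sum_eq_zero_iff_of_nonneg (fun i _ => h i)).mp e.symm i (Finset.mem_univ i)
    · omega
  refine ⟨key _ (root_ne_zero r), fun h => (pos_or_neg r).resolve_right fun h' => ?_⟩
  have := key _ (neg_ne_zero.mpr (root_ne_zero r)) h'
  simp only [ht, Pi.neg_apply, Finset.sum_neg_distrib] at this h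
  omega

theorem exists_odd (r : Φ) : ∃ v : L, Odd (B v r.1) := by
  by_contra hn
  push Not at hn
  simp only [Int.not_odd_iff_even] at hn
  obtain ⟨h0, h1, h2, h3, h4, h5, h6, h7⟩ := B_al r.1
  have k : ∀ i, ∃ t, B r.1 (al i) = 2 * t := fun i => by
    obtain ⟨t, ht⟩ := hn (al i)
    exact ⟨t, by rw [B_comm]; omega⟩
  choose t ht using k
  have t0 := ht 0; have t1 := ht 1; have t2 := ht 2; have t3 := ht 3; have t4 := ht 4
  have t5 := ht 5; have t6 := ht 6; have t7 := ht 7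
  have k2 : ∀ i, ∃ s, r.1 i = 2 * s := fun i => by
    refine ⟨r.1 i / 2, ?_⟩
    fin_cases i <;> simp <;> omega
  choose s hs using k2
  have h := r.2
  rw [B_eq_sum] at h
  simp only [ht, hs] at h
  have : ∑ i, 2 * s i * (2 * t i) = 4 * ∑ i, s i * t i := by
    rw [Finset.mul_sum]; exact Finset.sum_congr rfl fun i _ => by ring
  omega

/-- Reflections. -/
def sr (a : Φ) : L ≃+ L where
  toFun v := v - B v a.1 • a.1
  invFun v := v - B v a.1 • a.1
  left_inv v := by simp only [B_sub_left, B_smul_left, a.2]; module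
  right_inv v := by simp only [B_sub_left, B_smul_left, a.2]; module
  map_add' u v := by simp only [B_add_left]; module

theorem sr_apply (a : Φ) (v : L) : sr a v = v - B v a.1 • a.1 := rfl

theorem sr_symm (a : Φ) : (sr a).symm = sr a := rfl

theorem sr_iso (a : Φ) (u v : L) : B (sr a u) (sr a v) = B u v := by
  simp only [sr_apply, B_sub_left, B_sub_right, B_smul_left, B_smul_right, a.2, B_comm a.1 v]
  ring

theorem sr_sp_apply (i : Fin 8) (v : L) (j : Fin 8) :
    sr (sp i) v j = v j - if j = i then B v (al i) else 0 := by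
  simp only [sr_apply, sp_val, al, Pi.sub_apply, Pi.smul_apply, Pi.single_apply, smul_eq_mul]
  split_ifs <;> simp

theorem ht_sr_sp (i : Fin 8) (v : L) : ht (sr (sp i) v) = ht v - B v (al i) := by
  simp only [ht, sr_sp_apply, Finset.sum_sub_distrib]
  simp

/-- The module. -/
abbrev V := (Fin 8 → ZMod 2) × (Φ → ZMod 2)

/-- Reduction modulo two. -/
def red (v : L) : Fin 8 → ZMod 2 := fun i => (v i : ZMod 2)

theorem red_surj (h : Fin 8 → ZMod 2) : ∃ v, red v = h :=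
  ⟨fun i => ((h i).val : ℤ), by funext i; simp [red]⟩

theorem red_add (u v : L) : red (u + v) = red u + red v := by funext i; simp [red]

theorem red_neg (u : L) : red (-u) = red u := by
  funext i; simp [red, ZMod.neg_eq_self_mod_two]

/-- The pairing. -/
def Bb (h : Fin 8 → ZMod 2) (r : L) : ZMod 2 := ∑ i, h i * (B r (al i) : ℤ)

theorem Bb_red (u v : L) : Bb (red u) v = (B u v : ℤ) := by
  rw [B_eq_sum u v]; simp [Bb, red]

theorem Bb_add (h h' : Fin 8 → ZMod 2) (r : L) : Bb (h + h') r = Bb h r + Bb h' r := by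
  simp [Bb, add_mul, Finset.sum_add_distrib]

theorem Bb_smul (c : ZMod 2) (h : Fin 8 → ZMod 2) (r : L) : Bb (c • h) r = c * Bb h r := by
  simp [Bb, mul_assoc, Finset.mul_sum]

theorem Bb_zero (r : L) : Bb 0 r = 0 := by simp [Bb]

theorem Bb_add_right (h : Fin 8 → ZMod 2) (r s : L) : Bb h (r + s) = Bb h r + Bb h s := by
  simp [Bb, mul_add, Finset.sum_add_distrib]

theorem Bb_neg_right (h : Fin 8 → ZMod 2) (r : L) : Bb h (-r) = Bb h r := by
  simp [Bb, ZMod.neg_eq_self_mod_two]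

/-- Extension by zero. -/
def ex (f : Φ → ZMod 2) (v : L) : ZMod 2 := if h : B v v = 2 then f ⟨v, h⟩ else 0

theorem ex_root (f : Φ → ZMod 2) (r : Φ) : ex f r.1 = f r := by simp [ex, r.2]

theorem ex_zero (f : Φ → ZMod 2) {v : L} (h : B v v ≠ 2) : ex f v = 0 := by simp [ex, h]

theorem ex_add (f g : Φ → ZMod 2) (v : L) : ex (f + g) v = ex f v + ex g v := by
  unfold ex; split_ifs <;> simp

/-- The root elements as maps. -/
def Xf (r : Φ) (w : V) : V :=
  (w.1 + ex w.2 (-r.1) • red r.1,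
    fun s => w.2 s + (if s.1 = r.1 then Bb w.1 r.1 + ex w.2 (-r.1) else 0) + ex w.2 (s.1 - r.1))

theorem Xf_fst (r : Φ) (w : V) : (Xf r w).1 = w.1 + ex w.2 (-r.1) • red r.1 := rfl

theorem ex_Xf (r : Φ) (w : V) (v : L) : ex (Xf r w).2 v = if B v v = 2 then
    ex w.2 v + (if v = r.1 then Bb w.1 r.1 + ex w.2 (-r.1) else 0) + ex w.2 (v - r.1) else 0 := by
  by_cases h : B v v = 2
  · rw [if_pos h]
    have := ex_root (Xf r w).2 ⟨v, h⟩
    have h2 := ex_root w.2 ⟨v, h⟩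
    simp only at this h2
    rw [this, h2]
    rfl
  · rw [if_neg h, ex_zero _ h]

theorem Xf_add (r : Φ) (w w' : V) : Xf r (w + w') = Xf r w + Xf r w' := by
  apply Prod.ext
  · simp only [Xf, Prod.fst_add, Prod.snd_add, ex_add, add_smul]; abel
  · funext s
    simp only [Xf, Prod.fst_add, Prod.snd_add, ex_add, Bb_add, Pi.add_apply]
    split_ifs <;> ring

theorem V_ext {w w' : V} (h1 : w.1 = w'.1) (h2 : ∀ u : L, B u u = 2 → ex w.2 u = ex w'.2 u) :
    w = w' := by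
  refine Prod.ext h1 (funext fun s => ?_)
  rw [← ex_root w.2, ← ex_root w'.2, h2 _ s.2]

theorem eq_iff_B {u : L} (hu : B u u = 2) (a : Φ) : u = a.1 ↔ B u a.1 = 2 :=
  ⟨fun e => by rw [e, a.2], fun e => congrArg Subtype.val (eq_of_B_two (r := ⟨u, hu⟩) e)⟩

end Cfsg.Agent.H2.E8
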