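import Cfsg.Agent.H2.E8Grp

/-!
The maximal parabolic subgroup of `E₈(2)` belonging to the branch node and its iterated cores.
-/

set_option autoImplicit false

namespace Cfsg.Agent.H2.E8

/-- The level function. -/
def lam : L →+ ℤ where
  toFun v := v 3
  map_zero' := rfl
  map_add' _ _ := rfl

theorem lam_apply (v : L) : lam v = v 3 := rfl

/-- The height function. -/
def hth : L →+ ℤ where
  toFun := ht
  map_zero' := by simp [ht]
  map_add' u v := by simp [ht, Finset.sum_add_distrib]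

theorem hth_apply (v : L) : hth v = ht v := rfl

theorem ht_al (i : Fin 8) : ht (al i) = 1 := by simp [ht, al]

theorem ht_neg (v : L) : ht (-v) = -ht v := map_neg hth v

theorem ht_add (u v : L) : ht (u + v) = ht u + ht v := map_add hth u v

theorem neg_iff (r : Φ) : Pos (-r.1) ↔ ¬ 1 ≤ ht r.1 := by
  have h1 := pos_iff (ng r)
  have h2 := pos_iff r
  have h3 := pos_or_neg r
  rw [ng_val, ht_neg] at h1
  rw [h1, h2] at h3
  rw [h1]
  omega

theorem lam_al (i : Fin 8) : lam (al i) = if i = 3 then 1 else 0 := by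
  simp [lam_apply, al, Pi.single_apply, eq_comm]

theorem lam_sw (i : Fin 8) (v : L) :
    lam (sw (sp i) • v) = lam v - if i = 3 then B v (al i) else 0 := by
  rw [sw_smul, lam_apply, sr_sp_apply, lam_apply]
  simp only [eq_comm]

theorem ht_sw (i : Fin 8) (v : L) : ht (sw (sp i) • v) = ht v - B v (al i) := ht_sr_sp i v

theorem eq_sum_al (v : L) : v = ∑ i, v i • al i := by
  funext j
  simp [al, Finset.sum_apply, Pi.single_apply]

theorem W_eq_one {e : W} (h : ∀ i, e • al i = al i) : e = 1 := by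
  apply Subtype.ext
  apply LinearEquiv.ext
  intro v
  change e • v = v
  conv_lhs => rw [eq_sum_al v, Finset.smul_sum]
  simp only [W_smul_zsmul, h]
  exact (eq_sum_al v).symm

/-- The unipotent subgroup. -/
def U : Subgroup G := R hth 1

/-- The parabolic subgroup. -/
def P : Subgroup G := R lam 0

theorem x_mem_U {r : Φ} (h : 1 ≤ ht r.1) : x r ∈ U := x_mem h

theorem x_mem_P {r : Φ} (h : 0 ≤ lam r.1) : x r ∈ P := x_mem h

theorem U_le_P : U ≤ P := RR_mono fun r hr => (pos_iff r).mpr hr 3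

theorem nn_mem_P {i : Fin 8} (hi : i ≠ 3) : nn (sp i) ∈ P := by
  have h1 : x (sp i) ∈ P := x_mem_P (by simp [lam_al, hi])
  have h2 : x (ng (sp i)) ∈ P := x_mem_P (by simp [lam_al, hi])
  exact P.mul_mem (P.mul_mem h1 h2) h1

theorem exists_neg_B (r : Φ) (h : Pos (-r.1)) : ∃ i, r.1 i < 0 ∧ B r.1 (al i) < 0 := by
  by_contra hn
  push Not at hn
  have h1 := r.2
  rw [B_eq_sum] at h1
  have : ∑ i, r.1 i * B r.1 (al i) ≤ 0 := Finset.sum_nonpos fun i _ => by
    have h2 := h i
    simp only [Pi.neg_apply] at h2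
    rcases (show r.1 i < 0 ∨ r.1 i = 0 by omega) with e | e
    · exact mul_nonpos_of_nonpos_of_nonneg e.le (hn i e)
    · rw [e, zero_mul]
  omega

theorem eq_top_of_nn {H : Subgroup G} (hU : U ≤ H) (hn : ∀ i, nn (sp i) ∈ H) : H = ⊤ := by
  apply eq_top_of
  have key : ∀ k : ℕ, ∀ r : Φ, 1 - k ≤ ht r.1 → x r ∈ H := by
    intro k
    induction k with
    | zero => exact fun r hr => hU (x_mem_U (by simpa using hr))
    | succ k ih =>
      intro r hr
      by_cases h1 : 1 ≤ ht r.1
      · exact hU (x_mem_U h1)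
      obtain ⟨i, -, hi⟩ := exists_neg_B r ((neg_iff r).mpr h1)
      have h2 := ih (sw (sp i) • r) (by rw [smul_val, ht_sw]; push_cast at hr; omega)
      have h3 := (isN_nn (sp i)).inv.conj (sw (sp i) • r)
      rw [inv_smul_smul] at h3
      rw [← h3]
      exact H.mul_mem (H.mul_mem (H.inv_mem (hn i)) h2) (H.inv_mem (H.inv_mem (hn i)))
  exact fun r => key 57 r (by have := ht_bounds r; push_cast; omega)

theorem sw_pos {i : Fin 8} {r : Φ} (h : 1 ≤ ht r.1) (hne : r ≠ sp i) :
    1 ≤ ht (sw (sp i) • r).1 := by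
  by_contra hn
  have h1 := (neg_iff _).mpr hn
  have h2 := (pos_iff r).mpr h
  have h3 : ∀ j, j ≠ i → r.1 j = 0 := fun j hj => by
    have a := h1 j
    have b := h2 j
    simp only [smul_val, sw_smul, Pi.neg_apply, sr_sp_apply, if_neg hj] at a
    omega
  have h4 : r.1 = r.1 i • al i := by
    funext j
    by_cases hj : j = i
    · subst hj; simp [al]
    · simp [al, hj, h3 j hj]
  have h5 := r.2
  have h6 := (sp i).2
  rw [sp_val] at h6
  rw [h4, B_smul_left, B_smul_right, h6] at h5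
  have h7 := h2 i
  have h8 : r.1 i = 1 := by nlinarith
  rw [h8, one_smul] at h4
  exact hne (Subtype.ext h4)

theorem bruhat (g : G) : ∃ u ∈ U, ∃ u' ∈ U, ∃ n e, IsN n e ∧ g = u * n * u' := by
  let T : G → Prop := fun g => ∃ u ∈ U, ∃ u' ∈ U, ∃ n e, IsN n e ∧ g = u * n * u'
  have hU : ∀ a ∈ U, ∀ g, T g → T (a * g) := by
    rintro a ha _ ⟨u, hu, u', hu', n, e, h, rfl⟩
    exact ⟨a * u, U.mul_mem ha hu, u', hu', n, e, h, by group⟩
  have hn : ∀ i g, T g → T (nn (sp i) * g) := by
    rintro i _ ⟨u, hu, u', hu', n, e, h, rfl⟩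
    have hc : ∀ c ∈ RR (fun r => 1 ≤ hth r.1 ∧ r ≠ sp i), nn (sp i) * c * (nn (sp i))⁻¹ ∈ U :=
      fun c hc => conj_RR (fun r hr => by
        rw [(isN_nn _).conj]
        exact x_mem_U (sw_pos hr.1 hr.2)) hc
    have hs := split (a := sp i) (S := fun r => 1 ≤ hth r.1) (fun r hr => ⟨fun e => by
      have h1 := eq_neg_of_B (sp i).2 r e
      have h2 := ht_al i
      rw [← sp_val, h1, ht_neg] at h2
      rw [hth_apply] at hr
      omega, fun e => by
      simp only [ad_val, hth_apply, ht_add, sp_val, ht_al] at hr ⊢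
      omega⟩) (U.inv_mem hu)
    rcases hs with hs | hs
    · have := hc _ (Subgroup.inv_mem _ hs)
      rw [inv_inv] at this
      exact ⟨_, this, u', hu', _, _, (isN_nn (sp i)).mul h, by group⟩
    · have h1 := hc _ (Subgroup.inv_mem _ hs)
      rw [mul_inv_rev, inv_inv] at h1
      have h2 := h.inv.conj (sp i)
      have h3 := h.inv.conj (ng (sp i))
      by_cases hp : 1 ≤ ht (e⁻¹ • sp i).1
      · refine ⟨_, h1, _, U.mul_mem (x_mem_U hp) hu', _, _, (isN_nn (sp i)).mul h, ?_⟩
        rw [← h2]; group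
      · have hp' : 1 ≤ ht (e⁻¹ • ng (sp i)).1 := by
          rw [smul_ng, ← pos_iff, ng_val, neg_iff]; exact hp
        refine ⟨_, U.mul_mem h1 (x_mem_U (r := sp i) (by rw [sp_val, ht_al])), _,
          U.mul_mem (x_mem_U hp') hu', _, _, h, ?_⟩
        rw [← h3]
        have h4 : nn (sp i) * x (sp i) = x (sp i) * x (ng (sp i)) := by
          rw [nn, mul_assoc, x_mul_self, mul_one]
        calc nn (sp i) * (u * n * u') =
            nn (sp i) * (u * (x (sp i))⁻¹) * (nn (sp i))⁻¹ * (nn (sp i) * x (sp i)) * n * u' := by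
              group
          _ = _ := by rw [h4]; group
  let H : Subgroup G :=
    { carrier := {a | ∀ g, T g → T (a * g)}
      mul_mem' := fun {a b} ha hb g hg => by rw [mul_assoc]; exact ha _ (hb _ hg)
      one_mem' := fun g hg => by rwa [one_mul]
      inv_mem' := fun {a} ha g hg => by
        have key : ∀ k : ℕ, T (a ^ k * g) := by
          intro k
          induction k with
          | zero => simpa using hg
          | succ k ih => rw [pow_succ', mul_assoc]; exact ha _ ih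
        have h1 : a⁻¹ = a ^ (orderOf a - 1) := by
          rw [inv_eq_iff_mul_eq_one, ← pow_succ', Nat.sub_add_cancel (orderOf_pos a),
            pow_orderOf_eq_one]
        rw [h1]
        exact key _ }
  have : H = ⊤ := eq_top_of_nn hU hn
  have h1 : g ∈ H := this ▸ Subgroup.mem_top g
  have h2 := h1 1 ⟨1, U.one_mem, 1, U.one_mem, 1, 1, IsN.one, by simp⟩
  rwa [mul_one] at h2

/-- The Weyl vector. -/
def rho : L := ![46, 68, 91, 135, 110, 84, 57, 29]

theorem B_rho (v : L) : B rho v = ht v := by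
  simp [B, rho, ht, Fin.sum_univ_eight]; ring

theorem ht_eq_sum (u : L) : ht u = ∑ i, rho i * B u (al i) := by rw [← B_rho, B_eq_sum]

/-- The Cartan matrix. -/
def C (i j : Fin 8) : ℤ := B (al i) (al j)

set_option synthInstance.maxSize 1024 in
theorem diag_aut (σ : Fin 8 → Fin 8) (h : ∀ i j, C (σ i) (σ j) = C i j) : ∀ i, σ i = i := by
  have k1 : ∀ a b, C a b = -1 → ∀ c, C a c = -1 → C b c = 0 → ∀ d, C a d = -1 → C b d = 0 →
      C c d = 0 → a = 3 := by decide +kernel
  have k2 : ∀ b, C 3 b = -1 → ∀ c, C b c = -1 → C 3 c = 0 → ∀ d, C c d = -1 → C b d = 0 →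
      ∀ e, C d e = -1 → C c e = 0 → b = 4 ∧ c = 5 ∧ d = 6 ∧ e = 7 := by decide +kernel
  have k3 : ∀ b, C 3 b = -1 → C b 4 = 0 → ∀ c, C b c = -1 → C 3 c = 0 → b = 2 ∧ c = 0 := by
    decide +kernel
  have k4 : ∀ b, C 3 b = -1 → C b 4 = 0 → C b 2 = 0 → b = 1 := by decide +kernel
  have e3 : σ 3 = 3 := k1 _ (σ 1) (by rw [h]; decide +kernel) (σ 2) (by rw [h]; decide +kernel)
    (by rw [h]; decide +kernel) (σ 4) (by rw [h]; decide +kernel) (by rw [h]; decide +kernel)
    (by rw [h]; decide +kernel)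
  have h3 : ∀ j, C 3 (σ j) = C 3 j := fun j => by rw [← h 3 j, e3]
  obtain ⟨e4, e5, e6, e7⟩ := k2 (σ 4) (by rw [h3]; decide +kernel) (σ 5)
    (by rw [h]; decide +kernel) (by rw [h3]; decide +kernel) (σ 6) (by rw [h]; decide +kernel)
    (by rw [h]; decide +kernel) (σ 7) (by rw [h]; decide +kernel) (by rw [h]; decide +kernel)
  have h4 : ∀ j, C (σ j) 4 = C j 4 := fun j => by rw [← h j 4, e4]
  obtain ⟨e2, e0⟩ := k3 (σ 2) (by rw [h3]; decide +kernel) (by rw [h4]; decide +kernel) (σ 0)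
    (by rw [h]; decide +kernel) (by rw [h3]; decide +kernel)
  have h2 : ∀ j, C (σ j) 2 = C j 2 := fun j => by rw [← h j 2, e2]
  have e1 := k4 (σ 1) (by rw [h3]; decide +kernel) (by rw [h4]; decide +kernel)
    (by rw [h2]; decide +kernel)
  intro i
  fin_cases i <;> assumption

theorem eq_al_of_ht {r : Φ} (h : ht r.1 = 1) : ∃ j, r.1 = al j := by
  have h1 := (pos_iff r).mpr h.ge
  obtain ⟨j, hj⟩ : ∃ j, r.1 j ≠ 0 := by
    by_contra hn
    push Not at hn
    exact root_ne_zero r (funext hn)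
  refine ⟨j, funext fun k => ?_⟩
  have h2 := h1 j
  rw [ht, ← Finset.add_sum_erase _ _ (Finset.mem_univ j)] at h
  have h3 : 0 ≤ ∑ i ∈ Finset.univ.erase j, r.1 i := Finset.sum_nonneg fun i _ => h1 i
  by_cases hk : k = j
  · subst hk; simp only [al, Pi.single_eq_same]; omega
  · have h4 : ∑ i ∈ Finset.univ.erase j, r.1 i = 0 := by omega
    rw [(Finset.sum_eq_zero_iff_of_nonneg fun i _ => h1 i).mp h4 k (by simp [hk])]
    simp [al, hk]

theorem eq_one_of_pos {e : W} (h : ∀ i, 1 ≤ ht (e • al i)) : e = 1 := by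
  have h1 : ∀ v, ht (e • v) = B (e⁻¹ • rho) v := fun v => by
    rw [← B_rho, ← W_iso e⁻¹, inv_smul_smul]
  have h2 : e⁻¹ • rho - rho = 0 := by
    apply eq_zero_of_B
    have a1 : 0 ≤ ht (e⁻¹ • rho - rho) := by
      rw [ht_eq_sum]
      refine Finset.sum_nonneg fun i _ => mul_nonneg ?_ ?_
      · fin_cases i <;> simp [rho]
      · rw [B_sub_left, ← h1, B_rho, ht_al]
        have := h i
        omega
    rw [← B_rho] at a1
    simp only [B_sub_left, B_sub_right, W_iso, B_comm (e⁻¹ • rho) rho] at a1 ⊢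
    omega
  rw [sub_eq_zero] at h2
  have h3 : ∀ i, ∃ j, e • al i = al j := fun i => eq_al_of_ht (r := e • sp i) (by
    rw [smul_val, h1, h2, B_rho, sp_val, ht_al])
  choose σ hσ using h3
  have h4 := diag_aut σ fun i j => by rw [C, ← hσ, ← hσ, W_iso, C]
  exact W_eq_one fun i => by rw [hσ, h4]

theorem ht_smul_rho_le (e : W) : ht (e • rho) ≤ ht rho := by
  have := B_nonneg (e • rho - rho)
  simp only [B_sub_left, B_sub_right, W_iso, B_comm (e • rho) rho, B_rho] at this
  omega

theorem mem_P_of_lam {n : G} {e : W} (h : IsN n e) (hl : ∀ v, lam (e • v) = lam v) : n ∈ P := by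
  have key : ∀ k : ℕ, ∀ n e, IsN n e → (∀ v, lam (e • v) = lam v) →
      ht rho - ht (e • rho) < k → n ∈ P := by
    intro k
    induction k with
    | zero =>
      intro n e _ _ hk
      have := ht_smul_rho_le e
      push_cast at hk
      omega
    | succ k ih =>
      intro n e h hl hk
      by_cases hp : ∀ i, 1 ≤ ht (e • al i)
      · rw [eq_one_of_pos hp] at h
        rw [h.eq_one]
        exact P.one_mem
      push Not at hp
      obtain ⟨i, hi⟩ := hp
      have h1 := (neg_iff (e • sp i)).mpr (by simpa using hi)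
      have h2 : i ≠ 3 := by
        rintro rfl
        have a := h1 3
        have b := hl (al 3)
        rw [lam_al, lam_apply] at b
        simp only [smul_val, sp_val, Pi.neg_apply] at a
        simp only [if_true] at b
        omega
      have h3 := (pos_iff (ng (e • sp i))).mp h1
      have h4 := ih _ _ (h.mul (isN_nn (sp i))) (fun v => by
        rw [mul_smul, hl, lam_sw, if_neg h2, sub_zero]) (by
        have : sw (sp i) • rho = rho + -al i := by
          rw [sw_smul, sr_apply, B_rho, sp_val, ht_al, one_smul, sub_eq_add_neg]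
        rw [mul_smul, this, smul_add, ht_add, smul_neg]
        simp only [ng_val, smul_val, sp_val] at h3
        push_cast at hk
        omega)
      have := P.mul_mem h4 (P.inv_mem (nn_mem_P h2))
      rwa [mul_inv_cancel_right] at this
  refine key (ht rho - ht (e • rho) + 1).toNat n e h hl ?_
  have := ht_smul_rho_le e
  omega

theorem lam_of_nonneg {e : W} (h : ∀ r : Φ, 0 ≤ lam r.1 → 0 ≤ lam (e • r).1) (v : L) :
    lam (e • v) = lam v := by
  have h1 : ∀ i, i ≠ 3 → lam (e • al i) = 0 := fun i hi => by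
    have a := h (sp i) (by simp [lam_al, hi])
    have b := h (ng (sp i)) (by simp [lam_al, hi])
    simp only [smul_val, sp_val, ng_val, smul_neg, map_neg] at a b
    omega
  have h2 : ∀ v, lam (e • v) = lam v * lam (e • al 3) := fun v => by
    conv_lhs => rw [eq_sum_al v, Finset.smul_sum, map_sum]
    rw [Finset.sum_eq_single 3 (fun i _ hi => by rw [W_smul_zsmul, map_zsmul, h1 i hi, smul_zero])
      (by simp), W_smul_zsmul, map_zsmul, smul_eq_mul, lam_apply v]
  have h3 := h (sp 3) (by simp [lam_al])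
  simp only [smul_val, sp_val] at h3
  have h4 := h2 (e⁻¹ • al 3)
  rw [smul_inv_smul, lam_al, if_pos rfl] at h4
  rw [h2, Int.eq_one_of_mul_eq_one_left h3 h4.symm, mul_one]

theorem x_ad_mem {H : Subgroup G} {a b : Φ} (h : B a.1 b.1 = -1) (ha : x a ∈ H) (hb : x b ∈ H) :
    x (ad a b h) ∈ H := by
  have := H.mul_mem (H.inv_mem hb) (H.mul_mem (H.mul_mem ha hb) (H.inv_mem ha))
  rwa [x_conj_rel h, inv_mul_cancel_left] at this

theorem x_neg_notMem : x (ng (sp 3)) ∉ P := fun h =>
  not_Z_x _ (Z_of_mem le_rfl h (by simp [lam_al]))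

theorem neg_mem_of {H : Subgroup G} (hP : P ≤ H) {s : Φ} (hs : lam s.1 < 0) (hx : x s ∈ H) :
    x (ng (sp 3)) ∈ H := by
  have key : ∀ k : ℕ, ∀ s : Φ, lam s.1 < 0 → x s ∈ H → -k ≤ ht s.1 → x (ng (sp 3)) ∈ H := by
    intro k
    induction k with
    | zero =>
      intro s hs _ hk
      have h1 : ¬ 1 ≤ ht s.1 := fun e => by
        have := (pos_iff s).mpr e 3
        rw [lam_apply] at hs
        omega
      have h2 := (pos_iff (ng s)).mp ((neg_iff s).mpr h1)
      rw [ng_val, ht_neg] at h2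
      push_cast at hk
      omega
    | succ k ih =>
      intro s hs hx hk
      have h1 : ¬ 1 ≤ ht s.1 := fun e => by
        have := (pos_iff s).mpr e 3
        rw [lam_apply] at hs
        omega
      obtain ⟨i, -, hi⟩ := exists_neg_B s ((neg_iff s).mpr h1)
      have h2 := neg_two_le_B s (sp i)
      rw [sp_val] at h2
      have hxi : x (sp i) ∈ H := hP (x_mem_P (by rw [sp_val, lam_al]; split_ifs <;> norm_num))
      by_cases e : B s.1 (al i) = -2
      · have h3 := eq_neg_of_B s.2 (sp i) e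
        have h4 : i = 3 := by
          by_contra h5
          rw [h3, map_neg, sp_val, lam_al, if_neg h5] at hs
          omega
        subst h4
        rwa [show ng (sp 3) = s from Subtype.ext h3.symm]
      have e1 : B s.1 (sp i).1 = -1 := by rw [sp_val]; omega
      have h3 := x_ad_mem e1 hx hxi
      by_cases h4 : lam (ad s (sp i) e1).1 < 0
      · exact ih _ h4 h3 (by
          rw [ad_val, ht_add, sp_val, ht_al]
          push_cast at hk
          omega)
      have h5 : i = 3 := by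
        by_contra h5
        rw [ad_val, map_add, sp_val, lam_al, if_neg h5] at h4
        omega
      subst h5
      have e2 : B s.1 (ng (ad s (sp 3) e1)).1 = -1 := by
        simp only [ng_val, ad_val, B_neg_right, B_add_right, s.2, e1]; norm_num
      have h6 := x_ad_mem e2 hx (hP (x_mem_P (by
        simp only [ng_val, ad_val, map_neg, map_add, sp_val, lam_al, if_true]
        omega)))
      rwa [show ad s _ e2 = ng (sp 3) from Subtype.ext (by simp)] at h6
  exact key 56 s hs hx (ht_bounds s).1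

theorem isCoatom_P : IsCoatom P := by
  refine ⟨fun e => x_neg_notMem (e ▸ Subgroup.mem_top _), fun H hH => ?_⟩
  obtain ⟨g, hg, hgP⟩ := SetLike.exists_of_lt hH
  obtain ⟨u, hu, u', hu', n, e, h, rfl⟩ := bruhat g
  have h1 : n ∈ H := by
    have := H.mul_mem (H.mul_mem (H.inv_mem (hH.le (U_le_P hu))) hg) (H.inv_mem (hH.le (U_le_P hu')))
    convert this using 1
    group
  have h2 : ∃ r : Φ, 0 ≤ lam r.1 ∧ lam (e • r).1 < 0 := by
    by_contra hn
    push Not at hn
    exact hgP (P.mul_mem (P.mul_mem (U_le_P hu) (mem_P_of_lam h (lam_of_nonneg hn))) (U_le_P hu'))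
  obtain ⟨r, hr, hr'⟩ := h2
  have h3 : x (e • r) ∈ H := by
    rw [← h.conj]
    exact H.mul_mem (H.mul_mem h1 (hH.le (x_mem_P hr))) (H.inv_mem h1)
  have h4 := neg_mem_of hH.le hr' h3
  refine eq_top_of_nn (U_le_P.trans hH.le) fun i => ?_
  by_cases hi : i = 3
  · subst hi
    have h5 : x (sp 3) ∈ H := hH.le (x_mem_P (by simp [lam_al]))
    exact H.mul_mem (H.mul_mem h5 h4) h5
  · exact hH.le (nn_mem_P hi)

theorem descend (r : Φ) (hr : 0 ≤ lam r.1) : ∃ n ∈ P, ∃ e, IsN n e ∧ lam (e • r).1 = lam r.1 ∧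
    1 ≤ B (e • r).1 (al 3) ∧ (lam r.1 = 1 → B (e • r).1 (al 3) = 2) := by
  have key : ∀ k : ℕ, ∀ r : Φ, ht r.1 + 56 < k → ∃ n ∈ P, ∃ e, IsN n e ∧
      lam (e • r).1 = lam r.1 ∧ ∀ j, j ≠ 3 → B (e • r).1 (al j) ≤ 0 := by
    intro k
    induction k with
    | zero => intro r hk; have := ht_bounds r; push_cast at hk; omega
    | succ k ih =>
      intro r hk
      by_cases h : ∀ j, j ≠ 3 → B r.1 (al j) ≤ 0
      · exact ⟨1, P.one_mem, 1, IsN.one, by simp, by simpa using h⟩
      push Not at h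
      obtain ⟨j, hj, hB⟩ := h
      obtain ⟨n, hn, e, h, h1, h2⟩ := ih (sw (sp j) • r) (by
        rw [smul_val, ht_sw]; push_cast at hk; omega)
      refine ⟨_, P.mul_mem hn (nn_mem_P hj), _, h.mul (isN_nn _), ?_, ?_⟩
      · rw [mul_smul, h1, smul_val, lam_sw, if_neg hj, sub_zero]
      · simpa only [mul_smul] using h2
  obtain ⟨n, hn, e, h, h1, h2⟩ := key 200 r (by have := ht_bounds r; push_cast; omega)
  refine ⟨n, hn, e, h, h1, ?_⟩
  generalize e • r = s at h1 h2
  have a0 := h2 0 (by decide)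
  have a1 := h2 1 (by decide)
  have a2 := h2 2 (by decide)
  have a4 := h2 4 (by decide)
  have a5 := h2 5 (by decide)
  have a6 := h2 6 (by decide)
  have a7 := h2 7 (by decide)
  rw [← h1] at hr ⊢
  rw [lam_apply] at hr ⊢
  rcases hr.eq_or_lt with h0 | h0
  · refine ⟨?_, fun e => by omega⟩
    by_contra hn
    obtain ⟨b0, b1, b2, b3, b4, b5, b6, b7⟩ := B_al s.1
    apply root_ne_zero s
    funext i
    fin_cases i <;> simp <;> omega
  · have hp : Pos s.1 := (pos_or_neg s).resolve_right fun e => by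
      have := e 3
      simp only [Pi.neg_apply] at this
      omega
    have h3 := s.2
    rw [B_eq_sum, Fin.sum_univ_eight] at h3
    have c := fun j hj => mul_nonpos_of_nonneg_of_nonpos (hp j) (h2 j hj)
    have c0 := c 0 (by decide)
    have c1 := c 1 (by decide)
    have c2 := c 2 (by decide)
    have c4 := c 4 (by decide)
    have c5 := c 5 (by decide)
    have c6 := c 6 (by decide)
    have c7 := c 7 (by decide)
    have h4 : 2 ≤ s.1 3 * B s.1 (al 3) := by omega
    have h5 := B_le_two s (sp 3)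
    rw [sp_val] at h5
    refine ⟨by nlinarith, fun e => ?_⟩
    rw [e] at h4
    omega

/-- The core of `Y` in `M`. -/
def cr (M Y : Subgroup G) : Subgroup G := (Y.subgroupOf M).normalCore.map M.subtype

theorem mem_cr {M Y : Subgroup G} {g : G} :
    g ∈ cr M Y ↔ g ∈ M ∧ ∀ m ∈ M, m * g * m⁻¹ ∈ Y := by
  constructor
  · rintro ⟨a, ha, rfl⟩
    exact ⟨a.2, fun m hm => ha ⟨m, hm⟩⟩
  · rintro ⟨h1, h2⟩
    exact ⟨⟨g, h1⟩, fun m => h2 m m.2, rfl⟩

/-- The conjugating element. -/
def n4 : G := nn (sp 3)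

/-- The conjugate parabolic. -/
def Q : Subgroup G := P.map (MulAut.conj n4).toMonoidHom

/-- The two sequences. -/
def AB : ℕ → Subgroup G × Subgroup G
  | 0 => (P, Q)
  | i + 1 => (cr P ((AB i).1 ⊓ (AB i).2), cr Q ((AB i).1 ⊓ (AB i).2))

theorem n4_conj (g : G) : n4 * (n4 * g * n4⁻¹) * n4⁻¹ = g := by
  have : n4 * n4 = 1 := nn_mul_self _
  calc n4 * (n4 * g * n4⁻¹) * n4⁻¹ = (n4 * n4) * g * (n4 * n4)⁻¹ := by group
    _ = g := by rw [this]; group

theorem mem_Q {g : G} : g ∈ Q ↔ n4 * g * n4⁻¹ ∈ P := by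
  constructor
  · rintro ⟨a, ha, rfl⟩
    have := n4_conj a
    simp only [MulEquiv.coe_toMonoidHom, MulAut.conj_apply, this]
    exact ha
  · intro h
    exact ⟨_, h, n4_conj g⟩

theorem mem_B (i : ℕ) : ∀ g : G, g ∈ (AB i).2 ↔ n4 * g * n4⁻¹ ∈ (AB i).1 := by
  induction i with
  | zero => exact fun g => mem_Q
  | succ i ih =>
    intro g
    have sy : ∀ g : G, g ∈ (AB i).1 ⊓ (AB i).2 → n4 * g * n4⁻¹ ∈ (AB i).1 ⊓ (AB i).2 :=
      fun g hg => ⟨(ih g).mp hg.2, (ih _).mpr (by rw [n4_conj]; exact hg.1)⟩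
    simp only [AB, mem_cr, mem_Q]
    refine and_congr_right fun _ => ⟨fun h m hm => ?_, fun h m hm => ?_⟩
    · have := sy _ (h (n4 * m * n4⁻¹) (by rw [n4_conj]; exact hm))
      have e : n4 * (n4 * m * n4⁻¹ * g * (n4 * m * n4⁻¹)⁻¹) * n4⁻¹ =
          (n4 * (n4 * m * n4⁻¹) * n4⁻¹) * (n4 * g * n4⁻¹) * (n4 * (n4 * m * n4⁻¹) * n4⁻¹)⁻¹ := by
        group
      rwa [e, n4_conj] at this
    · have := sy _ (h _ hm)
      have e : n4 * m * n4⁻¹ * (n4 * g * n4⁻¹) * (n4 * m * n4⁻¹)⁻¹ = n4 * (m * g * m⁻¹) * n4⁻¹ := by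
        group
      rwa [e, n4_conj] at this

theorem mem_A (i : ℕ) (g : G) : g ∈ (AB (i + 1)).1 ↔ g ∈ P ∧ ∀ p ∈ P,
    p * g * p⁻¹ ∈ (AB i).1 ∧ n4 * (p * g * p⁻¹) * n4⁻¹ ∈ (AB i).1 := by
  simp only [AB, mem_cr, Subgroup.mem_inf, mem_B]

theorem conj_R {k : ℤ} (hk : 1 ≤ k) {p g : G} (hp : p ∈ P) (hg : g ∈ R lam k) :
    p * g * p⁻¹ ∈ R lam k := by
  refine RR_ind (p := fun p => p * g * p⁻¹ ∈ R lam k) (by simpa using hg) (fun a p ha ih => ?_) hp
  have : x a * p * g * (x a * p)⁻¹ = x a * (p * g * p⁻¹) * (x a)⁻¹ := by group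
  rw [this]
  refine x_conj_RR (fun r hr => ⟨fun e => ?_, fun e => ?_⟩) ih
  · rw [eq_neg_of_B a.2 r e, map_neg] at ha
    omega
  · rw [ad_val, map_add]
    omega

theorem R_anti {μ : L →+ ℤ} {k l : ℤ} (h : k ≤ l) : R μ l ≤ R μ k :=
  RR_mono fun _ hr => h.trans hr

theorem R_le_A (i : ℕ) : R lam (i + 1) ≤ (AB i).1 := by
  induction i with
  | zero => exact R_anti (by norm_num)
  | succ i ih =>
    intro g hg
    rw [mem_A]
    refine ⟨R_anti (by positivity) hg, fun p hp => ?_⟩
    have h1 := conj_R (by omega) hp hg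
    refine ⟨ih (R_anti (by push_cast; omega) h1), ih (conj_RR (fun r hr => ?_) h1)⟩
    rw [n4, (isN_nn _).conj]
    apply x_mem
    rw [smul_val, lam_sw, if_pos rfl]
    have h2 := B_le_two r (sp 3)
    have h3 : B r.1 (sp 3).1 ≠ 2 := fun e => by
      rw [eq_of_B_two e, sp_val, lam_al, if_pos rfl] at hr
      push_cast at hr
      omega
    rw [sp_val] at h2 h3
    push_cast at hr
    omega

theorem Z_of_A {i : ℕ} {k : ℤ} (hk : 0 ≤ k) (hA : (AB i).1 ≤ R lam k) {g : G}
    (hg : g ∈ (AB (i + 1)).1) {r : Φ} (hr : lam r.1 ≤ k ∨ (k = 0 ∧ lam r.1 = 1)) : Z g r := by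
  rw [mem_A] at hg
  by_cases h0 : lam r.1 < k
  · have := (hg.2 1 P.one_mem).1
    rw [one_mul, inv_one, mul_one] at this
    exact Z_of_mem hk (hA this) h0
  obtain ⟨n, hn, e, h, h1, h2, h3⟩ := descend r (by omega)
  refine h.Z_conj ((isN_nn (sp 3)).Z_conj (Z_of_mem hk (hA (hg.2 n hn).2) ?_))
  rw [smul_val, lam_sw, if_pos rfl]
  omega

theorem conj_A {i : ℕ} {p g : G} (hp : p ∈ P) (hg : g ∈ (AB (i + 1)).1) :
    p * g * p⁻¹ ∈ (AB (i + 1)).1 := by
  rw [mem_A] at hg ⊢
  refine ⟨P.mul_mem (P.mul_mem hp hg.1) (P.inv_mem hp), fun q hq => ?_⟩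
  have : q * (p * g * p⁻¹) * q⁻¹ = (q * p) * g * (q * p)⁻¹ := by group
  rw [this]
  exact hg.2 _ (P.mul_mem hq hp)

theorem A_one_le : (AB 1).1 ≤ R lam 2 := by
  intro g hg
  have hZ : ∀ g ∈ (AB 1).1, ∀ r : Φ, lam r.1 ≤ 1 → Z g r := fun g hg r hr =>
    Z_of_A (i := 0) le_rfl le_rfl hg (by omega)
  obtain ⟨u, hu, u', hu', n, e, h, rfl⟩ := bruhat g
  have h1 := conj_A (U_le_P hu') hg
  have e1 : u' * (u * n * u') * u'⁻¹ = u' * u * n := by group
  rw [e1] at h1
  have h2 : ∀ r : Φ, lam r.1 ≤ 1 → Z (u' * u) r := fun r hr => h.Z_mul (hZ _ h1 r hr)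
  let μ : L →+ ℤ := (200 : ℤ) • lam + hth
  have hμ : ∀ v, μ v = 200 * lam v + ht v := fun v => rfl
  have h3 : ∀ k : ℕ, k ≤ 299 → u' * u ∈ R μ (k + 1) := by
    intro k
    induction k with
    | zero =>
      intro _
      refine RR_mono (fun r hr => ?_) (U.mul_mem hu' hu)
      have := (pos_iff r).mpr hr 3
      rw [hμ, lam_apply]
      rw [hth_apply] at hr
      push_cast
      omega
    | succ k ih =>
      intro hk
      push_cast
      refine remove (by omega) (ih (by omega)) fun r hr => h2 r ?_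
      have := ht_bounds r
      rw [hμ] at hr
      omega
  have h4 : u' * u ∈ R lam 2 := RR_mono (fun r hr => by
    have := ht_bounds r
    rw [hμ] at hr
    push_cast at hr
    omega) (h3 299 le_rfl)
  have h5 : n ∈ (AB 1).1 := by
    have := Subgroup.mul_mem _ (Subgroup.inv_mem _ (R_le_A 1 h4)) h1
    rwa [inv_mul_cancel_left] at this
  have h6 : ∀ i, e • sp i = sp i := fun i => by
    by_contra hne
    have hx : x (sp i) ∈ P := x_mem_P (by rw [sp_val, lam_al]; split_ifs <;> norm_num)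
    have a1 := Subgroup.mul_mem _ h5 (conj_A hx (Subgroup.inv_mem _ h5))
    have a2 : n * (x (sp i) * n⁻¹ * (x (sp i))⁻¹) = x (e • sp i) * x (sp i) := by
      rw [← h.conj, x_inv]; group
    rw [a2] at a1
    have a3 := hZ _ a1 (sp i) (by rw [sp_val, lam_al]; split_ifs <;> norm_num)
    obtain ⟨k, hk⟩ := exists_Bb (sp i)
    have a4 := a3 k
    rw [mul_smul, x_smul, x_smul, Xf_snd, if_neg (fun e => hne (Subtype.ext e.symm)), Xf_snd,
      ex_eq_zero (f := (Xf (sp i) (k, 0)).2) (fun hv => by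
        rw [Xf_snd, if_neg (fun e2 => root_ne_zero (e • sp i) (by simpa using e2))]
        simp [ex_zero_fun])] at a4
    simp only [Pi.zero_apply, if_true, hk, ex_zero_fun] at a4
    simp at a4
  rw [W_eq_one (e := e) fun i => congrArg Subtype.val (h6 i)] at h
  have h7 := conj_R (by norm_num) (P.inv_mem (U_le_P hu')) h4
  rw [h.eq_one]
  convert h7 using 1
  group

theorem A_le (i : ℕ) : (AB (i + 1)).1 ≤ R lam (i + 2) := by
  induction i with
  | zero => exact A_one_le
  | succ i ih =>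
    intro g hg
    have h1 : g ∈ (AB (i + 1)).1 := by
      have := (((mem_A _ _).mp hg).2 1 P.one_mem).1
      rwa [one_mul, inv_one, mul_one] at this
    have := remove (by omega) (ih h1) fun r hr => Z_of_A (by positivity) ih hg (Or.inl hr.le)
    convert this using 2
    push_cast
    ring

theorem A_six : (AB 6).1 = ⊥ := by
  rw [eq_bot_iff]
  refine (A_le 5).trans (RR_le fun r hr => ?_)
  have := (root_bounds r).1
  rw [lam_apply] at hr
  push_cast at hr
  omega

theorem A_five : (AB 5).1 ≠ ⊥ := fun h => by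
  let r : Φ := ⟨![2, 3, 4, 6, 5, 4, 3, 2], by simp [B]⟩
  have h1 : x r ∈ (AB 5).1 := R_le_A 5 (x_mem (by simp [r, lam_apply]))
  rw [h, Subgroup.mem_bot] at h1
  apply not_Z_x r
  rw [h1]
  intro k
  simp

theorem P_ne_Q : P ≠ Q := fun h => by
  have h1 : x (sp 3) ∈ Q := h ▸ x_mem_P (by simp [lam_al])
  rw [mem_Q, n4, (isN_nn _).conj] at h1
  refine not_Z_x _ (Z_of_mem le_rfl h1 ?_)
  have := (sp 3).2
  rw [sp_val] at this
  rw [smul_val, lam_sw, if_pos rfl, sp_val, this, lam_al]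
  norm_num

theorem core_P : P.normalCore = ⊥ := by
  have key : ∀ i, P.normalCore ≤ (AB i).1 := by
    intro i
    induction i with
    | zero => exact P.normalCore_le
    | succ i ih =>
      intro g hg
      rw [mem_A]
      have hN := P.normalCore_normal
      exact ⟨P.normalCore_le hg, fun p _ => ⟨ih (hN.conj_mem _ hg _),
        ih (hN.conj_mem _ (hN.conj_mem _ hg _) _)⟩⟩
  rw [eq_bot_iff, ← A_six]
  exact key 6

end Cfsg.Agent.H2.E8
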