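import Cfsg.Agent.H2.E8Lat

/-!
The Steinberg relations for the root elements of the adjoint group of type `E₈` over `𝔽₂`.
-/

set_option autoImplicit false

namespace Cfsg.Agent.H2.E8

theorem ex_Xf' (r : Φ) (w : V) (v : L) : ex (Xf r w).2 v = if B v v = 2 then
    ex w.2 v + (if B v r.1 = 2 then Bb w.1 r.1 + ex w.2 (-r.1) else 0) + ex w.2 (v - r.1)
    else 0 := by
  rw [ex_Xf]
  by_cases h : B v v = 2
  · simp only [if_pos h, eq_iff_B h]
  · simp only [if_neg h]

theorem ex_leaf (f : Φ → ZMod 2) : ∃ F : L → ZMod 2, ∀ v, ex f v = if B v v = 2 then F v else 0 :=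
  ⟨ex f, fun v => by
    split_ifs with h
    · rfl
    · exact ex_zero f h⟩

theorem eq_neg_of_B {u : L} (hu : B u u = 2) (a : Φ) (h : B u a.1 = -2) : u = -a.1 :=
  (eq_iff_B hu (ng a)).mpr (by simp [h])

theorem B_range {u : L} (hu : B u u = 2) (a : Φ) : B u a.1 = -2 ∨ B u a.1 = -1 ∨ B u a.1 = 0 ∨
    B u a.1 = 1 ∨ B u a.1 = 2 := by
  have h1 := B_le_two ⟨u, hu⟩ a
  have h2 := neg_two_le_B ⟨u, hu⟩ a
  simp only at h1 h2
  omega

theorem Xf_invol (a : Φ) (w : V) : Xf a (Xf a w) = w := by
  obtain ⟨F, hF⟩ := ex_leaf w.2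
  have ha := a.2
  apply V_ext
  · simp only [Xf_fst, ex_Xf', hF, B_sub_left, B_sub_right, B_neg_left, B_neg_right, ha]
    norm_num
    rw [add_assoc, ← add_smul, CharTwo.add_self_eq_zero, zero_smul, add_zero]
  · intro u hu
    have hau := B_comm a.1 u
    simp only [Xf_fst, ex_Xf', hF, B_sub_left, B_sub_right, B_neg_left, B_neg_right, ha, hu, hau,
      Bb_add, Bb_smul, Bb_red]
    rcases B_range hu a with h | h | h | h | h <;> rw [h] <;> norm_num <;> grind

theorem Xf_comm (a b : Φ) (hab : B a.1 b.1 = 0 ∨ B a.1 b.1 = 1) (w : V) :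
    Xf a (Xf b w) = Xf b (Xf a w) := by
  obtain ⟨F, hF⟩ := ex_leaf w.2
  have ha := a.2
  have hb := b.2
  have hba := B_comm b.1 a.1
  apply V_ext
  · simp only [Xf_fst, ex_Xf', hF, B_sub_left, B_sub_right, B_neg_left, B_neg_right, ha, hb, hba]
    rcases hab with h | h <;> rw [h] <;> norm_num <;> abel
  · intro u hu
    have hau := B_comm a.1 u
    have hbu := B_comm b.1 u
    by_cases h1 : u = a.1
    · subst h1
      simp only [Xf_fst, ex_Xf', hF, B_sub_left, B_sub_right, B_neg_left, B_neg_right, ha, hb, hba,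
        Bb_add, Bb_smul, Bb_red]
      rcases hab with h | h <;> rw [h] <;> norm_num <;> grind
    by_cases h2 : u = b.1
    · subst h2
      simp only [Xf_fst, ex_Xf', hF, B_sub_left, B_sub_right, B_neg_left, B_neg_right, ha, hb, hba,
        Bb_add, Bb_smul, Bb_red]
      rcases hab with h | h <;> rw [h] <;> norm_num <;> grind
    rw [eq_iff_B hu] at h1 h2
    have e : u - b.1 - a.1 = u - a.1 - b.1 := by abel
    simp only [Xf_fst, ex_Xf', hF, e, B_sub_left, B_sub_right, B_neg_left, B_neg_right, ha, hb, hba,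
        Bb_add, Bb_smul, Bb_red, hu, hau, hbu]
    have := B_range hu a
    have := B_range hu b
    grind

/-- Sum of two roots. -/
def ad (a b : Φ) (h : B a.1 b.1 = -1) : Φ :=
  ⟨a.1 + b.1, by simp [a.2, b.2, B_comm b.1 a.1, h]⟩

@[simp] theorem ad_val (a b : Φ) (h : B a.1 b.1 = -1) : (ad a b h).1 = a.1 + b.1 := rfl

theorem Xf_rel (a b : Φ) (hab : B a.1 b.1 = -1) (w : V) :
    Xf a (Xf b w) = Xf b (Xf a (Xf (ad a b hab) w)) := by
  obtain ⟨F, hF⟩ := ex_leaf w.2
  have ha := a.2
  have hb := b.2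
  have hba : B b.1 a.1 = -1 := by rw [B_comm, hab]
  apply V_ext
  · have e1 : -a.1 - b.1 = -(a.1 + b.1) := by abel
    have e2 : -b.1 - a.1 = -(a.1 + b.1) := by abel
    simp only [Xf_fst, ex_Xf', hF, ad_val, e1, e2, B_sub_left, B_sub_right, B_neg_left, B_neg_right,
      B_add_left, B_add_right, ha, hb, hba, hab, red_add]
    norm_num
    funext i
    simp only [Pi.add_apply, Pi.smul_apply, smul_eq_mul]
    grind
  · intro u hu
    have hau := B_comm a.1 u
    have hbu := B_comm b.1 u
    have e1 : -a.1 - b.1 = -(a.1 + b.1) := by abel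
    have e2 : -b.1 - a.1 = -(a.1 + b.1) := by abel
    by_cases h1 : u = a.1
    · subst h1
      have e3 : a.1 - (a.1 + b.1) = -b.1 := by abel
      simp only [Xf_fst, ex_Xf', hF, ad_val, e1, e2, e3, B_sub_left, B_sub_right, B_neg_left,
        B_neg_right, B_add_left, B_add_right, ha, hb, hba, hab, Bb_add, Bb_smul, Bb_red, Bb_add_right]
      norm_num
      grind
    by_cases h2 : u = b.1
    · subst h2
      have e3 : b.1 - (a.1 + b.1) = -a.1 := by abel
      simp only [Xf_fst, ex_Xf', hF, ad_val, e1, e2, e3, B_sub_left, B_sub_right, B_neg_left,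
        B_neg_right, B_add_left, B_add_right, ha, hb, hba, hab, Bb_add, Bb_smul, Bb_red, Bb_add_right]
      norm_num
      grind
    by_cases h3 : u = a.1 + b.1
    · subst h3
      have e3 : a.1 + b.1 - a.1 = b.1 := by abel
      have e4 : a.1 + b.1 - b.1 = a.1 := by abel
      simp only [Xf_fst, ex_Xf', hF, ad_val, e1, e2, e3, e4, B_sub_left, B_sub_right, B_neg_left,
        B_neg_right, B_add_left, B_add_right, ha, hb, hba, hab, Bb_add, Bb_smul, Bb_red, Bb_add_right]
      norm_num
      grind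
    rw [eq_iff_B hu] at h1 h2
    have h3' : ¬ B u a.1 + B u b.1 = 2 := fun e => h3 ((eq_iff_B hu (ad a b hab)).mpr (by simpa using e))
    have e3 : u - b.1 - a.1 = u - (a.1 + b.1) := by abel
    have e4 : u - a.1 - b.1 = u - (a.1 + b.1) := by abel
    simp only [Xf_fst, ex_Xf', hF, ad_val, e1, e2, e3, e4, B_sub_left, B_sub_right, B_neg_left,
        B_neg_right, B_add_left, B_add_right, ha, hb, hba, hab, Bb_add, Bb_smul, Bb_red, Bb_add_right,
        hu, hau, hbu]
    have := B_range hu a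
    have := B_range hu b
    grind

theorem Xf_n (a : Φ) (w : V) : Xf a (Xf (ng a) (Xf a w)) =
    (w.1 + Bb w.1 a.1 • red a.1, fun s => ex w.2 (sr a s.1)) := by
  obtain ⟨F, hF⟩ := ex_leaf w.2
  have ha := a.2
  apply V_ext
  · simp only [Xf_fst, ex_Xf', hF, ng_val, neg_neg, B_sub_left, B_sub_right, B_neg_left, B_neg_right,
      ha, red_neg, Bb_add, Bb_smul, Bb_red, Bb_neg_right]
    norm_num
    funext i
    simp only [Pi.add_apply, Pi.smul_apply, smul_eq_mul]
    grind
  · intro u hu
    have hau := B_comm a.1 u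
    have e0 := ex_root (fun s : Φ => ex w.2 (sr a s.1)) ⟨u, hu⟩
    simp only at e0 ⊢
    rw [e0, sr_apply]
    rcases B_range hu a with h | h | h | h | h
    · obtain rfl := eq_neg_of_B hu a h
      have e1 : -a.1 - B (-a.1) a.1 • a.1 = a.1 := by rw [h]; module
      rw [e1]
      simp only [Xf_fst, ex_Xf', hF, ng_val, neg_neg, B_sub_left, B_sub_right, B_neg_left,
        B_neg_right, ha, red_neg, Bb_add, Bb_smul, Bb_red, Bb_neg_right]
      norm_num
      grind
    · have e1 : u - B u a.1 • a.1 = u - -a.1 := by rw [h]; module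
      rw [e1]
      have e2 : u - -a.1 - a.1 = u := by abel
      simp only [Xf_fst, ex_Xf', hF, e2, ng_val, neg_neg, B_sub_left, B_sub_right, B_neg_left,
        B_neg_right, ha, red_neg, Bb_add, Bb_smul, Bb_red, Bb_neg_right, hu, hau, h]
      norm_num
      grind
    · have e1 : u - B u a.1 • a.1 = u := by rw [h]; module
      rw [e1]
      simp only [Xf_fst, ex_Xf', hF, ng_val, neg_neg, B_sub_left, B_sub_right, B_neg_left,
        B_neg_right, ha, red_neg, Bb_add, Bb_smul, Bb_red, Bb_neg_right, hu, hau, h]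
      norm_num
    · have e1 : u - B u a.1 • a.1 = u - a.1 := by rw [h]; module
      rw [e1]
      have e2 : u - a.1 - -a.1 = u := by abel
      simp only [Xf_fst, ex_Xf', hF, e2, ng_val, neg_neg, B_sub_left, B_sub_right, B_neg_left,
        B_neg_right, ha, red_neg, Bb_add, Bb_smul, Bb_red, Bb_neg_right, hu, hau, h]
      norm_num
      grind
    · obtain rfl := (eq_iff_B hu a).mpr h
      have e1 : a.1 - B a.1 a.1 • a.1 = -a.1 := by rw [h]; module
      rw [e1]
      simp only [Xf_fst, ex_Xf', hF, ng_val, neg_neg, B_sub_left, B_sub_right, B_neg_left,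
        B_neg_right, ha, red_neg, Bb_add, Bb_smul, Bb_red, Bb_neg_right]
      norm_num
      grind

end Cfsg.Agent.H2.E8
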